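import Cfsg.Agent.CZFact.Perm

/-!
# Involutory automorphisms of cyclic groups
-/

set_option autoImplicit false
set_option linter.style.haveILetI false
set_option linter.unusedSectionVars false

namespace Cfsg.Agent.CZFact

open Subgroup

universe u

variable {D : Type u} [Group D] [Finite D] [IsCyclic D]

theorem cyc_comm (x y : D) : x * y = y * x := by
  haveI := IsCyclic.isMulCommutative (α := D)
  exact mul_comm' x y

/-- `x ↦ x * σ x`. -/
def normHom (σ : D →* D) : D →* D where
  toFun x := x * σ x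
  map_one' := by rw [map_one, one_mul]
  map_mul' x y := by
    rw [map_mul]
    calc x * y * (σ x * σ y) = x * (y * σ x) * σ y := by group
      _ = x * (σ x * y) * σ y := by rw [cyc_comm y]
      _ = x * σ x * (y * σ y) := by group

/-- `x ↦ σ x * x⁻¹`. -/
def commHom (σ : D →* D) : D →* D where
  toFun x := σ x * x⁻¹
  map_one' := by rw [map_one, inv_one, one_mul]
  map_mul' x y := by
    rw [map_mul]
    calc σ x * σ y * (x * y)⁻¹ = σ x * (σ y * y⁻¹ * x⁻¹) := by group
      _ = σ x * (x⁻¹ * (σ y * y⁻¹)) := by rw [cyc_comm (σ y * y⁻¹)]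
      _ = σ x * x⁻¹ * (σ y * y⁻¹) := by group

variable {σ : D →* D}

@[simp] theorem normHom_apply (x : D) : normHom σ x = x * σ x := rfl
@[simp] theorem commHom_apply (x : D) : commHom σ x = σ x * x⁻¹ := rfl

theorem range_commHom_le (hσ : ∀ x, σ (σ x) = x) : (commHom σ).range ≤ (normHom σ).ker := by
  rintro _ ⟨x, rfl⟩
  rw [MonoidHom.mem_ker, normHom_apply, commHom_apply, map_mul, map_inv, hσ]
  group

theorem range_normHom_le (hσ : ∀ x, σ (σ x) = x) : (normHom σ).range ≤ (commHom σ).ker := by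
  rintro _ ⟨x, rfl⟩
  rw [MonoidHom.mem_ker, normHom_apply, commHom_apply, map_mul, hσ, cyc_comm (σ x) x]
  group

theorem card_ker_eq : Nat.card (normHom σ).ker * Nat.card (normHom σ).range =
    Nat.card (commHom σ).ker * Nat.card (commHom σ).range := by
  rw [← Subgroup.index_ker, ← Subgroup.index_ker, Subgroup.card_mul_index, Subgroup.card_mul_index]

/-- Squares of fixed points are norms. -/
theorem card_fixed_le : Nat.card (commHom σ).ker ≤ 2 * Nat.card (normHom σ).range := by
  classical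
  set sq : (commHom σ).ker →* (normHom σ).range :=
    { toFun := fun x => ⟨normHom σ x, x, rfl⟩
      map_one' := Subtype.ext (map_one _)
      map_mul' := fun x y => Subtype.ext (map_mul _ _ _) } with hsq
  have hker : Nat.card sq.ker ≤ 2 := by
    haveI := Fintype.ofFinite D
    have hle := IsCyclic.card_pow_eq_one_le (α := D) (n := 2) (by norm_num)
    refine le_trans (le_of_eq_of_le ?_ (Finset.card_le_card (show
      (Finset.univ.filter fun x : D => ∃ h : x ∈ (commHom σ).ker, (⟨x, h⟩ : (commHom σ).ker) ∈ sq.ker)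
        ⊆ Finset.univ.filter (fun a : D => a ^ 2 = 1) from ?_))) hle
    · rw [← Fintype.card_subtype, ← Nat.card_eq_fintype_card]
      exact Nat.card_congr
        { toFun := fun x => ⟨(x : (commHom σ).ker), x.1.2, x.2⟩
          invFun := fun x => ⟨⟨x.1, x.2.1⟩, x.2.2⟩
          left_inv := fun x => rfl
          right_inv := fun x => rfl }
    · intro x hx
      simp only [Finset.mem_filter, Finset.mem_univ, true_and] at hx ⊢
      obtain ⟨h1, h2⟩ := hx
      have h3 : x * σ x = 1 := congrArg Subtype.val h2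
      rw [MonoidHom.mem_ker, commHom_apply, mul_inv_eq_one] at h1
      rw [h1] at h3
      rwa [pow_two]
  have h1 := Subgroup.card_mul_index sq.ker
  rw [Subgroup.index_ker] at h1
  have h2 : Nat.card sq.range ≤ Nat.card (normHom σ).range := Subgroup.card_le_card_group _
  calc Nat.card (commHom σ).ker = Nat.card sq.ker * Nat.card sq.range := h1.symm
    _ ≤ 2 * Nat.card (normHom σ).range := Nat.mul_le_mul hker h2

/-- The inverted elements modulo commutators form a group of order at most two. -/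
theorem exists_comm_eq_div (hσ : ∀ x, σ (σ x) = x) {x y : D} (hx : x * σ x = 1)
    (hy : y * σ y = 1) (hx' : ∀ z, σ z * z⁻¹ ≠ x) (hy' : ∀ z, σ z * z⁻¹ ≠ y) :
    ∃ z, σ z * z⁻¹ = x⁻¹ * y := by
  set J := (normHom σ).ker
  set I := (commHom σ).range.subgroupOf J with hI
  have hcard : Nat.card I = Nat.card (commHom σ).range :=
    Nat.card_congr (Subgroup.subgroupOfEquivOfLe (range_commHom_le hσ)).toEquiv
  have hidx : I.index ≤ 2 := by
    have h1 := I.card_mul_index
    rw [hcard] at h1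
    have h2 : Nat.card J * Nat.card (normHom σ).range =
        Nat.card (commHom σ).ker * Nat.card (commHom σ).range := card_ker_eq
    have h3 := card_fixed_le (σ := σ)
    have h4 : 0 < Nat.card (normHom σ).range := Nat.card_pos
    have h5 : 0 < Nat.card (commHom σ).range := Nat.card_pos
    rw [← h1] at h2
    have h6 : I.index * Nat.card (normHom σ).range = Nat.card (commHom σ).ker :=
      Nat.eq_of_mul_eq_mul_left h5 (by rw [← mul_assoc, h2, mul_comm])
    exact Nat.le_of_mul_le_mul_right (h6 ▸ h3) h4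
  have hxI : (⟨x, hx⟩ : J) ∉ I := fun h => by
    obtain ⟨z, hz⟩ := Subgroup.mem_subgroupOf.1 h
    exact hx' z hz
  have hyI : (⟨y, hy⟩ : J) ∉ I := fun h => by
    obtain ⟨z, hz⟩ := Subgroup.mem_subgroupOf.1 h
    exact hy' z hz
  have h2 : I.index = 2 := by
    have h0 : I.index ≠ 0 := Subgroup.index_ne_zero_of_finite
    have h1 : I.index ≠ 1 := fun h => hxI (Subgroup.index_eq_one.1 h ▸ Subgroup.mem_top _)
    omega
  have := (Subgroup.mul_mem_iff_of_index_two h2 (a := (⟨x, hx⟩ : J)⁻¹) (b := ⟨y, hy⟩)).2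
    (iff_of_false (fun h => hxI (inv_mem_iff.1 h)) hyI)
  obtain ⟨z, hz⟩ := Subgroup.mem_subgroupOf.1 this
  exact ⟨z, hz⟩

theorem mem_sq_of_ne_top (h2 : IsPGroup 2 D) {U : Subgroup D} (hU : U ≠ ⊤) {x : D} (hx : x ∈ U)
    {d : D} (hd : ∀ y, y ∈ zpowers d) : ∃ i : ℤ, x = d ^ (2 * i) := by
  obtain ⟨i, rfl⟩ := Subgroup.mem_zpowers_iff.1 (hd x)
  rcases Int.even_or_odd i with ⟨r, hr⟩ | hodd
  · exact ⟨r, by rw [hr]; congr 1; ring⟩
  exfalso
  refine hU (eq_top_iff.2 fun y _ => ?_)
  obtain ⟨k, hk⟩ := h2 d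
  have hc : IsCoprime i ((2 : ℤ) ^ k) := by
    apply IsCoprime.pow_right
    obtain ⟨r, rfl⟩ := hodd
    exact ⟨1, -r, by ring⟩
  obtain ⟨a, b, hab⟩ := hc
  have hdU : d ∈ U := by
    have h0 : d ^ (b * (2 : ℤ) ^ k) = 1 := by
      rw [show b * (2 : ℤ) ^ k = ((2 ^ k : ℕ) : ℤ) * b by push_cast; ring, zpow_mul, zpow_natCast,
        hk, one_zpow]
    have h1 : d = (d ^ i) ^ a := by
      calc d = d ^ (a * i + b * (2 : ℤ) ^ k) := by rw [hab, zpow_one]
        _ = (d ^ i) ^ a := by rw [zpow_add, h0, mul_one, mul_comm a, zpow_mul]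
    rw [h1]
    exact Subgroup.zpow_mem _ hx a
  obtain ⟨j, rfl⟩ := Subgroup.mem_zpowers_iff.1 (hd y)
  exact Subgroup.zpow_mem _ hdU j

/-- If some inverted element is no commutator, then `σ` is trivial or the inversion. -/
theorem dichotomy (h2 : IsPGroup 2 D) (hσ : ∀ x, σ (σ x) = x) {x : D} (hx : x * σ x = 1)
    (hx' : ∀ z, σ z * z⁻¹ ≠ x) : (∀ z, σ z = z) ∨ (∀ z, z * σ z = 1) := by
  by_cases hall : (commHom σ).ker = ⊤
  · left
    intro z
    have : z ∈ (commHom σ).ker := hall ▸ Subgroup.mem_top z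
    rwa [MonoidHom.mem_ker, commHom_apply, mul_inv_eq_one] at this
  right
  have hne : (normHom σ).range ≠ (commHom σ).ker := by
    intro heq
    have h1 := card_ker_eq (σ := σ)
    rw [heq, mul_comm (Nat.card (normHom σ).ker)] at h1
    have h3 : Nat.card (normHom σ).ker = Nat.card (commHom σ).range :=
      Nat.eq_of_mul_eq_mul_left Nat.card_pos h1
    have h4 := Subgroup.eq_of_le_of_card_ge (range_commHom_le hσ) h3.le
    obtain ⟨z, hz⟩ : x ∈ (commHom σ).range := h4 ▸ (show x ∈ (normHom σ).ker from hx)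
    exact hx' z hz
  obtain ⟨d, hd⟩ := IsCyclic.exists_generator (α := D)
  set R := (normHom σ).range.subgroupOf (commHom σ).ker with hR
  have hRne : R ≠ ⊤ := fun h => hne (le_antisymm (range_normHom_le hσ) (subgroupOf_eq_top.1 h))
  obtain ⟨f, hf⟩ := IsCyclic.exists_generator (α := (commHom σ).ker)
  obtain ⟨i, hi⟩ := mem_sq_of_ne_top (h2.to_subgroup _) hRne
    (show (⟨normHom σ d, range_normHom_le hσ ⟨d, rfl⟩⟩ : (commHom σ).ker) ∈ R from
      Subgroup.mem_subgroupOf.2 ⟨d, rfl⟩) hf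
  obtain ⟨j, hj⟩ := mem_sq_of_ne_top h2 hall f.2 hd
  have hNd : normHom σ d = (f : D) ^ (2 * i) := by
    have := congrArg Subtype.val hi
    simpa using this
  have hf2 : (f : D) ^ (2 : ℤ) = 1 := by
    have hfix : σ (f : D) = f := by
      have := f.2
      rwa [MonoidHom.mem_ker, commHom_apply, mul_inv_eq_one] at this
    have h1 : normHom σ (f : D) = (f : D) ^ (2 : ℤ) := by
      rw [normHom_apply, hfix]
      exact (zpow_two _).symm
    have h3 : normHom σ (f : D) = (f : D) ^ (4 * (i * j)) := by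
      conv_lhs => rw [hj, map_zpow, hNd]
      rw [← zpow_mul]
      congr 1; ring
    obtain ⟨k, hk⟩ := h2 (f : D)
    have hodd : IsCoprime (2 * (i * j) - 1) ((2 : ℤ) ^ k) := by
      apply IsCoprime.pow_right
      exact ⟨-1, i * j, by ring⟩
    obtain ⟨a, b, hab⟩ := hodd
    have h4 : ((f : D) ^ (2 : ℤ)) ^ (2 * (i * j) - 1) = 1 := by
      rw [← zpow_mul, show (2 : ℤ) * (2 * (i * j) - 1) = 4 * (i * j) - 2 by ring, zpow_sub, ← h3, h1,
        mul_inv_cancel]
    have h5 : ((f : D) ^ (2 : ℤ)) ^ ((2 : ℤ) ^ k) = 1 := by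
      rw [← zpow_mul, mul_comm, zpow_mul, show ((2 : ℤ) ^ k) = ((2 ^ k : ℕ) : ℤ) by push_cast; rfl,
        zpow_natCast, hk, one_zpow]
    rw [← zpow_one ((f : D) ^ (2 : ℤ)), ← hab, zpow_add, mul_comm a, zpow_mul, h4, one_zpow,
      one_mul, mul_comm b, zpow_mul, h5, one_zpow]
  intro z
  obtain ⟨m, rfl⟩ := Subgroup.mem_zpowers_iff.1 (hd z)
  rw [← normHom_apply, map_zpow, hNd, zpow_mul, hf2, one_zpow, one_zpow]

end Cfsg.Agent.CZFact
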