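import Cfsg.Agent.CZFact.Small
import Cfsg.Agent.S0215

/-!
# Every involution fixes at most two points
-/

set_option autoImplicit false
set_option linter.style.haveILetI false
set_option linter.unusedSectionVars false
set_option maxHeartbeats 1000000

namespace Cfsg.Agent.CZFact

open Subgroup MulAction

universe u

variable {X : Type u} [Group X] [Finite X] {Ω : Type u} [MulAction X Ω] [Finite Ω]

/-- The centraliser of `t` acting on the fixed points of `t`. -/
def fixHom (t : X) : centralizer ({t} : Set X) →* Equiv.Perm {w : Ω // t • w = w} where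
  toFun g :=
    { toFun := fun w => ⟨(g : X) • (w : Ω),
        Hyp.cent_fix (mem_centralizer_singleton_iff.1 g.2) w.2⟩
      invFun := fun w => ⟨(g : X)⁻¹ • (w : Ω),
        Hyp.cent_fix (mem_centralizer_singleton_iff.1 (inv_mem g.2)) w.2⟩
      left_inv := fun w => Subtype.ext (inv_smul_smul _ _)
      right_inv := fun w => Subtype.ext (smul_inv_smul _ _) }
  map_one' := Equiv.ext fun w => Subtype.ext (one_smul X _)
  map_mul' g g' := Equiv.ext fun w => Subtype.ext (mul_smul (g : X) (g' : X) _)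

/-- The group induced on the fixed points. -/
abbrev FixGroup (Ω : Type u) [MulAction X Ω] (t : X) : Subgroup (Equiv.Perm {w : Ω // t • w = w}) :=
  (fixHom (Ω := Ω) t).range

theorem fix_smul {t : X} (g : centralizer ({t} : Set X)) (w : {w : Ω // t • w = w}) :
    (((fixHom (Ω := Ω) t).rangeRestrict g • w : {w : Ω // t • w = w}) : Ω) = (g : X) • (w : Ω) :=
  rfl

theorem eq_one_of_pows {G : Type u} [Group G] {x : G} {N k : ℕ} (hN : Odd N) (h1 : x ^ N = 1)
    (h2 : x ^ (2 ^ k) = 1) : x = 1 := by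
  have hg : Nat.gcd N (2 ^ k) = 1 := by
    apply Nat.Coprime.pow_right
    exact hN.coprime_two_right
  have h3 := pow_gcd_eq_one.2 ⟨h1, h2⟩
  rwa [hg, pow_one] at h3

theorem Cfg.mem_T_of_mem_Q {α β : Ω} {t e : X} {T C Q : Subgroup X} (c : Cfg α β t e T C Q)
    {q : X} (hq : q ∈ Q) (hqα : q • α = α) : q ∈ T := by
  obtain ⟨a, ha, d, hd, rfl⟩ := c.Q_dec q hq
  rw [mul_smul, c.T_fixl d hd] at hqα
  rw [c.C_free a ha α hqα, one_mul]
  exact hd

theorem fix_hyp (h : Hyp X Ω) {α β : Ω} {t e : X} {T C Q : Subgroup X} (c : Cfg α β t e T C Q)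
    {a b d : Ω} (hta : t • a = a) (htb : t • b = b) (htd : t • d = d) (hab : a ≠ b) (had : a ≠ d)
    (hbd : b ≠ d) : Hyp (FixGroup Ω t) {w : Ω // t • w = w} where
  faith g hg := Subtype.ext (Equiv.ext fun w => hg w)
  two a' b' c' d' hab' hcd' := by
    obtain ⟨g, hg, hg1, hg2⟩ := h.exists_cent_map c.t_ne c.t_sq
      (fun e => hab' (Subtype.ext e)) (fun e => hcd' (Subtype.ext e)) a'.2 b'.2 c'.2 d'.2
    exact ⟨(fixHom t).rangeRestrict ⟨g, mem_centralizer_singleton_iff.2 hg⟩, Subtype.ext hg1,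
      Subtype.ext hg2⟩
  even := by
    haveI : Fact (Nat.Prime 2) := ⟨Nat.prime_two⟩
    have hp : IsPGroup 2 (zpowers t) := by
      intro x
      obtain ⟨j, hj⟩ := Subgroup.mem_zpowers_iff.1 x.2
      refine ⟨1, Subtype.ext ?_⟩
      rw [SubmonoidClass.coe_pow, OneMemClass.coe_one, pow_one, pow_two, ← hj,
        ← (Commute.refl t).mul_zpow, c.t_sq, one_zpow]
    have h1 := hp.card_modEq_card_fixedPoints (α := Ω)
    have h2 : Nat.card (fixedPoints (zpowers t) Ω) = Nat.card {w : Ω // t • w = w} :=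
      Nat.card_congr (Equiv.subtypeEquivRight fun w => ⟨fun hw => hw ⟨t, mem_zpowers t⟩, fun hw x => by
        obtain ⟨j, hj⟩ := Subgroup.mem_zpowers_iff.1 x.2
        show (x : X) • w = w
        rw [← hj]; exact fixes_zpow hw j⟩)
    rw [h2] at h1
    have h3 := Nat.even_iff.1 h.even
    rw [Nat.ModEq, h3] at h1
    exact Nat.even_iff.2 h1.symm
  large := by
    have he : Even (Nat.card {w : Ω // t • w = w}) := by
      haveI : Fact (Nat.Prime 2) := ⟨Nat.prime_two⟩
      have hp : IsPGroup 2 (zpowers t) := by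
        intro x
        obtain ⟨j, hj⟩ := Subgroup.mem_zpowers_iff.1 x.2
        refine ⟨1, Subtype.ext ?_⟩
        rw [SubmonoidClass.coe_pow, OneMemClass.coe_one, pow_one, pow_two, ← hj,
          ← (Commute.refl t).mul_zpow, c.t_sq, one_zpow]
      have h1 := hp.card_modEq_card_fixedPoints (α := Ω)
      have h2 : Nat.card (fixedPoints (zpowers t) Ω) = Nat.card {w : Ω // t • w = w} :=
        Nat.card_congr (Equiv.subtypeEquivRight fun w => ⟨fun hw => hw ⟨t, mem_zpowers t⟩, fun hw x => by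
          obtain ⟨j, hj⟩ := Subgroup.mem_zpowers_iff.1 x.2
          show (x : X) • w = w
          rw [← hj]; exact fixes_zpow hw j⟩)
      rw [h2] at h1
      have h3 := Nat.even_iff.1 h.even
      rw [Nat.ModEq, h3] at h1
      exact Nat.even_iff.2 h1.symm
    have h3 : 3 ≤ Nat.card {w : Ω // t • w = w} := by
      have h4 := Set.ncard_le_ncard (show ({a, b, d} : Set Ω) ⊆ {w | t • w = w} by
        rintro w (rfl | rfl | rfl) <;> assumption)
      rw [Set.ncard_eq_three.2 ⟨a, b, d, hab, had, hbd, rfl⟩, ← Nat.card_coe_set_eq] at h4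
      exact h4
    obtain ⟨r, hr⟩ := he
    omega
  zst w := by
    haveI := h.zst (w : Ω)
    let S' : Subgroup X := stabilizer X (w : Ω) ⊓ centralizer {t}
    haveI : IsZGroup S' := IsZGroup.of_injective (Subgroup.inclusion_injective
      (inf_le_left : S' ≤ stabilizer X (w : Ω)))
    let ψ : S' →* stabilizer (FixGroup Ω t) w :=
      { toFun := fun g => ⟨(fixHom t).rangeRestrict ⟨g, g.2.2⟩,
          mem_stabilizer_iff.2 (Subtype.ext (mem_stabilizer_iff.1 g.2.1))⟩
        map_one' := Subtype.ext (map_one (fixHom (Ω := Ω) t).rangeRestrict)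
        map_mul' := fun g g' => Subtype.ext
          (map_mul (fixHom (Ω := Ω) t).rangeRestrict ⟨g, g.2.2⟩ ⟨g', g'.2.2⟩) }
    refine IsZGroup.of_surjective (f := ψ) ?_
    rintro ⟨⟨_, g, rfl⟩, hr⟩
    exact ⟨⟨g, mem_stabilizer_iff.2 (congrArg Subtype.val (mem_stabilizer_iff.1 hr)), g.2⟩, rfl⟩
  semi := by
    let κ : C →* FixGroup Ω t :=
      (fixHom t).rangeRestrict.comp (Subgroup.inclusion (c.C_le.trans c.Q_le))
    refine ⟨κ.range, ?_, ?_, ?_⟩
    · haveI := c.C_cyc
      exact isCyclic_of_surjective _ κ.rangeRestrict_surjective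
    · rintro _ ⟨x, rfl⟩ w hw
      have h1 : (x : X) = 1 := c.C_free _ x.2 _ (congrArg Subtype.val hw)
      rw [show x = 1 from Subtype.ext h1, map_one]
    · have hinj : Function.Injective κ := (injective_iff_map_eq_one κ).2 fun x hx => by
        let αF : {w : Ω // t • w = w} := ⟨α, c.T_fixl t c.t_mem⟩
        have h1 : κ x • αF = αF := by rw [hx, one_smul]
        exact Subtype.ext (c.C_free _ x.2 α (congrArg Subtype.val h1))
      rw [← Nat.card_congr (MonoidHom.ofInjective hinj).toEquiv, c.C_card, ← Nat.card_coe_set_eq]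
      rfl

/-- The inductive step. -/
theorem descent_step (h : Hyp X Ω) {α β : Ω} {t e : X} {T C Q : Subgroup X}
    (c : Cfg α β t e T C Q) (h' : Hyp (FixGroup Ω t) {w : Ω // t • w = w})
    (hb' : Bound2 (FixGroup Ω t) {w : Ω // t • w = w}) : False := by
  classical
  haveI : Fact (Nat.Prime 2) := ⟨Nat.prime_two⟩
  set F := {w : Ω // t • w = w}
  let ρ : centralizer ({t} : Set X) →* FixGroup Ω t := (fixHom t).rangeRestrict
  have hρ : ∀ (g : centralizer ({t} : Set X)) (w : F), ((ρ g • w : F) : Ω) = (g : X) • (w : Ω) :=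
    fun g w => rfl
  let αF : F := ⟨α, c.T_fixl t c.t_mem⟩
  let βF : F := ⟨β, c.T_fixr t c.t_mem⟩
  have hFne : αF ≠ βF := fun e => c.ne (congrArg Subtype.val e)
  have hTC : ∀ d ∈ T, d ∈ centralizer ({t} : Set X) := fun d hd => c.Q_le (c.T_le hd)
  have heC : e ∈ centralizer ({t} : Set X) := c.Q_le (c.C_le c.e_mem)
  -- fixing all fixed points of `t`
  let P : X → Prop := fun x => ∀ w : F, x • (w : Ω) = w
  have hPeq : ∀ x (hx : x ∈ centralizer ({t} : Set X)), P x ↔ ρ ⟨x, hx⟩ = 1 := by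
    intro x hx
    refine ⟨fun hP => Subtype.ext (Equiv.ext fun w => Subtype.ext (hP w)), fun h1 w => ?_⟩
    rw [← hρ ⟨x, hx⟩ w, h1, one_smul]
  -- the image of `Q` is a Sylow subgroup
  have hQcard : Nat.card (Q.subgroupOf (centralizer {t})) =
      2 ^ (Nat.card (centralizer ({t} : Set X))).factorization 2 := by
    rw [Nat.card_congr (Subgroup.subgroupOfEquivOfLe c.Q_le).toEquiv, c.Q_card]
  let QS : Sylow 2 (centralizer ({t} : Set X)) := Sylow.ofCard _ hQcard
  let P' : Sylow 2 (FixGroup Ω t) := QS.mapSurjective (f := ρ) (MonoidHom.rangeRestrict_surjective _)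
  have hP' : ∀ z, z ∈ (P' : Subgroup (FixGroup Ω t)) →
      ∃ q, ∃ hq : q ∈ Q, ρ ⟨q, c.Q_le hq⟩ = z := by
    intro z hz
    obtain ⟨q, hq, rfl⟩ := hz
    exact ⟨q, Subgroup.mem_subgroupOf.1 hq, rfl⟩
  let κ : C →* FixGroup Ω t := ρ.comp (Subgroup.inclusion (c.C_le.trans c.Q_le))
  haveI := c.C_cyc
  -- `T` does not fix all fixed points
  have hex : ∃ d ∈ T, ¬ P d := by
    by_contra hall
    push Not at hall
    refine h'.sylow_not_cyclic P' ?_
    haveI : IsCyclic κ.range := isCyclic_of_surjective _ κ.rangeRestrict_surjective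
    have hle : (P' : Subgroup (FixGroup Ω t)) ≤ κ.range := by
      intro z hz
      obtain ⟨q, hq, rfl⟩ := hP' z hz
      obtain ⟨a, ha, d, hd, rfl⟩ := c.Q_dec q hq
      refine ⟨⟨a, ha⟩, ?_⟩
      have h1 := (hPeq d (hTC d hd)).1 (hall d hd)
      rw [show (⟨a * d, c.Q_le hq⟩ : centralizer ({t} : Set X)) =
        Subgroup.inclusion (c.C_le.trans c.Q_le) ⟨a, ha⟩ * ⟨d, hTC d hd⟩ from rfl, map_mul, h1,
        mul_one]
      rfl
    exact isCyclic_of_injective (Subgroup.inclusion hle) (Subgroup.inclusion_injective _)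
  obtain ⟨d₀, hd₀, hd₀P, hd₀2⟩ : ∃ d₀ ∈ T, ¬ P d₀ ∧ P (d₀ * d₀) := by
    obtain ⟨d, hd, hdP⟩ := hex
    obtain ⟨k, hk⟩ := c.T_two ⟨d, hd⟩
    have hk' : d ^ (2 ^ k) = 1 := congrArg Subtype.val hk
    have hP1 : ∃ j, P (d ^ (2 ^ j)) := ⟨k, fun w => by rw [hk', one_smul]⟩
    obtain ⟨j, hj, hmin⟩ : ∃ j, P (d ^ (2 ^ j)) ∧ ∀ i < j, ¬ P (d ^ (2 ^ i)) :=
      ⟨Nat.find hP1, Nat.find_spec hP1, fun i hi => Nat.find_min hP1 hi⟩
    rcases j with - | j
    · exact absurd (by simpa using hj) hdP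
    · refine ⟨d ^ (2 ^ j), pow_mem hd _, hmin j (Nat.lt_succ_self j), ?_⟩
      rw [← pow_add, ← two_mul, ← pow_succ']
      exact hj
  have hd₀1 : d₀ * d₀ ≠ 1 := by
    intro h1
    have h0 : d₀ ≠ 1 := fun e => hd₀P fun w => by rw [e, one_smul]
    rw [cyclic_unique_inv c.T_cyc hd₀ c.t_mem h0 c.t_ne h1 c.t_sq] at hd₀P
    exact hd₀P fun w => w.2
  rcases c.dichotomy h with hcen | hinv
  swap
  · -- `e` inverts `T`
    have hd₀P' := hd₀P
    simp only [P, not_forall] at hd₀P'
    obtain ⟨w, hw⟩ := hd₀P'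
    have hd₀C := mem_centralizer_singleton_iff.1 (hTC d₀ hd₀)
    obtain ⟨g, -, hg1, hg2⟩ := h.exists_cent_map c.t_ne c.t_sq (Ne.symm hw) c.ne w.2
      (Hyp.cent_fix hd₀C w.2) (c.T_fixl t c.t_mem) (c.T_fixr t c.t_mem)
    set y := g * d₀ * g⁻¹ with hy
    have hyα : y • α = β := by rw [← hg1, hy, mul_smul, mul_smul, inv_smul_smul, hg2]
    have hyβ : y • β = α := by
      rw [← hg2, hy, mul_smul, mul_smul, inv_smul_smul, ← mul_smul d₀, hd₀2 w, hg1]
    have hxD : e * y ∈ pairStab (X := X) α β := mem_two.2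
      ⟨by rw [mul_smul, hyα, swap_right c.e_sq c.e_swap], by rw [mul_smul, hyβ, c.e_swap]⟩
    obtain ⟨u, v, hu, hv, huv, hu2, hvo⟩ := split (e * y)
    have huT : u ∈ T := c.mem_T h (zpowers_le.2 hxD hu) hu2
    have hy2 : y * y = (e * v * e) * v := by
      have hyd : y = e * (u * v) := by rw [← huv, ← mul_assoc, c.e_sq, one_mul]
      have hcm : e * v * e * u = u * (e * v * e) := by
        obtain ⟨h1, h2⟩ := mem_two.1 (conj_mem_two c.e_sq c.e_swap (zpowers_le.2 hxD hv))
        exact h.two_comm c.ne h1 h2 (c.T_fixl u huT) (c.T_fixr u huT)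
      have hinvu : e * u * e = u⁻¹ := eq_inv_of_mul_eq_one_right (hinv u huT)
      calc y * y = e * u * (e * e) * v * e * (u * v) := by rw [hyd, c.e_sq, mul_one]; group
        _ = e * u * e * (e * v * e * u) * v := by group
        _ = e * u * e * u * (e * v * e) * v := by rw [hcm]; group
        _ = (e * v * e) * v := by rw [hinvu, inv_mul_cancel, one_mul]
    obtain ⟨k, hk⟩ := c.T_two ⟨d₀, hd₀⟩
    have hk' : d₀ ^ (2 ^ k) = 1 := congrArg Subtype.val hk
    have hyk : (y * y) ^ (2 ^ k) = 1 := by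
      rw [← pow_two, ← pow_mul, mul_comm, pow_mul, hy, conj_pow, hk']
      group
    have hyN : (y * y) ^ orderOf v = 1 := by
      rw [hy2]
      have hcm : Commute (e * v * e) v := by
        obtain ⟨h1, h2⟩ := mem_two.1 (conj_mem_two c.e_sq c.e_swap (zpowers_le.2 hxD hv))
        obtain ⟨h3, h4⟩ := mem_two.1 (zpowers_le.2 hxD hv)
        exact h.two_comm c.ne h1 h2 h3 h4
      rw [hcm.mul_pow, pow_orderOf_eq_one, mul_one, show e * v * e = e * v * e⁻¹ by
        rw [sq_one_inv c.e_sq], conj_pow, pow_orderOf_eq_one]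
      group
    have h1 := eq_one_of_pows hvo hyN hyk
    refine hd₀1 ?_
    calc d₀ * d₀ = g⁻¹ * (y * y) * g := by rw [hy]; group
      _ = 1 := by rw [h1]; group
  -- `e` centralises `T`
  have hPT : ∀ x ∈ T, ∀ y ∈ T, P x → P y → P (x * y) := fun x _ y _ hx hy w => by
    rw [mul_smul, hy w, hx w]
  let τ : FixGroup Ω t := ρ ⟨d₀, hTC d₀ hd₀⟩
  let εF : FixGroup Ω t := ρ ⟨e, heC⟩
  have hτ1 : τ ≠ 1 := fun h1 => hd₀P ((hPeq _ (hTC d₀ hd₀)).2 h1)
  have hτ2 : τ * τ = 1 := by
    rw [← map_mul]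
    exact (hPeq _ (mul_mem (hTC d₀ hd₀) (hTC d₀ hd₀))).1 hd₀2
  have hτα : τ • αF = αF := Subtype.ext (c.T_fixl d₀ hd₀)
  have hτβ : τ • βF = βF := Subtype.ext (c.T_fixr d₀ hd₀)
  have hεfree : ∀ w : F, εF • w ≠ w := fun w hw => c.e_free w (congrArg Subtype.val hw)
  have hε2 : εF * εF = 1 := by
    rw [← map_mul, show (⟨e, heC⟩ : centralizer ({t} : Set X)) * ⟨e, heC⟩ = 1 from Subtype.ext c.e_sq,
      map_one]
  obtain ⟨hsmall, -, -⟩ := small_count h' hb' hFne hτ1 hτ2 hτα hτβ (e := εF) hε2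
    (Subtype.ext c.e_swap) hεfree
  have hecom : ∀ d ∈ T, d * e = e * d := fun d hd => by
    calc d * e = e * d * e * e := by rw [hcen d hd]
      _ = e * d := by rw [mul_assoc (e * d), c.e_sq, mul_one]
  have himg : ∀ d (hd : d ∈ T), ρ ⟨d, hTC d hd⟩ = 1 ∨ ρ ⟨d, hTC d hd⟩ = τ := by
    intro d hd
    refine hsmall _ (mem_two.2 ⟨Subtype.ext (c.T_fixl d hd), Subtype.ext (c.T_fixr d hd)⟩) ?_
    rw [← map_mul, ← map_mul]
    exact congrArg ρ (Subtype.ext (hecom d hd))
  have hsq : ∀ d ∈ T, P (d * d) := by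
    intro d hd
    refine (hPeq _ (mul_mem (hTC d hd) (hTC d hd))).2 ?_
    rw [show (⟨d * d, _⟩ : centralizer ({t} : Set X)) = ⟨d, hTC d hd⟩ * ⟨d, hTC d hd⟩ from rfl,
      map_mul]
    rcases himg d hd with h1 | h1 <;> rw [h1]
    · exact mul_one 1
    · exact hτ2
  -- a generator of `T`
  haveI := c.T_cyc
  obtain ⟨⟨d, hdT⟩, hgen⟩ := IsCyclic.exists_generator (α := T)
  have hgen' : ∀ y ∈ T, ∃ i : ℤ, d ^ i = y := fun y hy => by
    obtain ⟨i, hi⟩ := Subgroup.mem_zpowers_iff.1 (hgen ⟨y, hy⟩)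
    exact ⟨i, congrArg Subtype.val hi⟩
  obtain ⟨k0, hk0⟩ := c.T_two ⟨d, hdT⟩
  obtain ⟨v, -, hv⟩ := (Nat.dvd_prime_pow Nat.prime_two).1
    (orderOf_dvd_of_pow_eq_one (congrArg Subtype.val hk0 : d ^ (2 ^ k0) = 1))
  have hdv : d ^ (2 ^ v) = 1 := hv ▸ pow_orderOf_eq_one d
  obtain ⟨v, rfl⟩ : ∃ v', v = v' + 2 := by
    refine ⟨v - 2, ?_⟩
    by_contra hh
    have h2 : (d * d) = 1 := by
      rw [← pow_two]
      rcases (show v = 0 ∨ v = 1 by omega) with rfl | rfl
      · rw [pow_zero, pow_one] at hdv; rw [hdv, one_pow]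
      · simpa using hdv
    obtain ⟨i, hi⟩ := hgen' d₀ hd₀
    exact hd₀1 (by rw [← hi, ← (Commute.refl d).mul_zpow, h2, one_zpow])
  have hdt : d ^ (2 ^ (v + 1)) = t := by
    refine cyclic_unique_inv c.T_cyc (pow_mem hdT _) c.t_mem ?_ c.t_ne ?_ c.t_sq
    · intro h1
      have h2 := orderOf_dvd_of_pow_eq_one h1
      rw [hv] at h2
      have h3 := (Nat.pow_dvd_pow_iff_le_right (by norm_num : 1 < 2)).1 h2
      omega
    · rw [← pow_add, ← two_mul, ← pow_succ', hdv]
  have hdP : ¬ P d := by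
    intro h1
    obtain ⟨i, hi⟩ := hgen' d₀ hd₀
    exact hd₀P fun w => by rw [← hi]; exact fixes_zpow (h1 w) i
  have hPd : ∀ k ∈ T, P k → ∃ i : ℤ, k = (d * d) ^ i := by
    intro k hk hkP
    obtain ⟨i, rfl⟩ := hgen' k hk
    rcases Int.even_or_odd i with ⟨r, rfl⟩ | ⟨r, rfl⟩
    · exact ⟨r, by rw [(Commute.refl d).mul_zpow, zpow_add]⟩
    · refine absurd (fun w => ?_) hdP
      have h1 := hkP w
      rw [zpow_add, zpow_one, (Commute.zpow_self d _).eq, mul_smul, zpow_mul] at h1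
      rwa [fixes_zpow (show d ^ (2 : ℤ) • (w : Ω) = w by rw [zpow_two]; exact hsq d hdT w) r] at h1
  -- an element moving `t` to `e * t` normalising `Q`
  obtain ⟨k, hk⟩ := c.conj_et h hcen
  have het : ∀ q ∈ Q, q * (e * t) = e * t * q := by
    intro q hq
    obtain ⟨a, ha, d', hd', rfl⟩ := c.Q_dec q hq
    have h1 : a * e = e * a := by
      haveI := IsCyclic.isMulCommutative (α := C)
      exact congrArg Subtype.val (mul_comm' (M := C) ⟨a, ha⟩ ⟨e, c.e_mem⟩)
    have h2 : a * d' * t = t * (a * d') := mem_centralizer_singleton_iff.1 (c.Q_le hq)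
    calc a * d' * (e * t) = a * (d' * e) * t := by group
      _ = (a * e) * d' * t := by rw [hecom d' hd']; group
      _ = e * (a * d' * t) := by rw [h1]; group
      _ = e * t * (a * d') := by rw [h2]; group
  set H : Subgroup X := centralizer {e * t} with hH
  have hmap : (centralizer ({t} : Set X)).map (MulAut.conj k).toMonoidHom = H := by
    ext x
    rw [hH, mem_centralizer_singleton_iff, ← hk]
    constructor
    · rintro ⟨y, hy, rfl⟩
      simp only [MulEquiv.coe_toMonoidHom, MulAut.conj_apply]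
      calc k * y * k⁻¹ * (k * t * k⁻¹) = k * (y * t) * k⁻¹ := by group
        _ = k * (t * y) * k⁻¹ := by rw [mem_centralizer_singleton_iff.1 hy]
        _ = k * t * k⁻¹ * (k * y * k⁻¹) := by group
    · intro hx
      refine ⟨k⁻¹ * x * k, mem_centralizer_singleton_iff.2 ?_, by simp [MulAut.conj_apply, mul_assoc]⟩
      calc k⁻¹ * x * k * t = k⁻¹ * (x * (k * t * k⁻¹)) * k := by group
        _ = k⁻¹ * (k * t * k⁻¹ * x) * k := by rw [hx]
        _ = t * (k⁻¹ * x * k) := by group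
  have hHc : Nat.card H = Nat.card (centralizer ({t} : Set X)) := by
    rw [← hmap, Subgroup.card_map_of_injective (MulEquiv.injective _)]
  have hQH : Q ≤ H := fun q hq => mem_centralizer_singleton_iff.2 (het q hq)
  have hQ'H : Q.map (MulAut.conj k).toMonoidHom ≤ H := hmap ▸ Subgroup.map_mono c.Q_le
  let S1 : Sylow 2 H := Sylow.ofCard (Q.subgroupOf H)
    (by rw [Nat.card_congr (Subgroup.subgroupOfEquivOfLe hQH).toEquiv, c.Q_card, hHc])
  let S2 : Sylow 2 H := Sylow.ofCard ((Q.map (MulAut.conj k).toMonoidHom).subgroupOf H)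
    (by rw [Nat.card_congr (Subgroup.subgroupOfEquivOfLe hQ'H).toEquiv,
      Subgroup.card_map_of_injective (MulEquiv.injective _), c.Q_card, hHc])
  obtain ⟨l, hl⟩ := MulAction.exists_smul_eq H S2 S1
  set g : X := (l : X) * k with hg
  have hgt : g * t * g⁻¹ = e * t := by
    calc g * t * g⁻¹ = (l : X) * (k * t * k⁻¹) * (l : X)⁻¹ := by rw [hg]; group
      _ = e * t := by rw [hk, mem_centralizer_singleton_iff.1 l.2, mul_inv_cancel_right]
  set q := g * d * g⁻¹ with hq
  have hqQ : q ∈ Q := by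
    have h1 : (⟨k * d * k⁻¹, hQ'H ⟨d, c.T_le hdT, rfl⟩⟩ : H) ∈ (S2 : Subgroup H) :=
      Subgroup.mem_subgroupOf.2 ⟨d, c.T_le hdT, rfl⟩
    have h2 := Subgroup.smul_mem_pointwise_smul _ (MulAut.conj l) (S2 : Subgroup H) h1
    have h3 : (MulAut.conj l • (⟨k * d * k⁻¹, hQ'H ⟨d, c.T_le hdT, rfl⟩⟩ : H)) ∈ (S1 : Subgroup H) := by
      rw [← hl]; exact h2
    have h4 := Subgroup.mem_subgroupOf.1 h3
    simp only [MulAut.smul_def, MulAut.conj_apply, Subgroup.coe_mul, InvMemClass.coe_inv] at h4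
    convert h4 using 1
    rw [hq, hg]; group
  have hqp : q ^ (2 ^ (v + 1)) = e * t := by rw [hq, conj_pow, hdt, hgt]
  obtain ⟨a, ha, d', hd', hqd⟩ := c.Q_dec q hqQ
  have haC := c.Q_le (c.C_le ha)
  rcases himg d' hd' with h1 | h1
  · -- even case: the power lies in `C`
    have hd'P : P d' := (hPeq d' (hTC d' hd')).2 h1
    have hstep : ∀ l : ℕ, ∃ i : ℤ, q ^ (2 ^ l) = a ^ (2 ^ l) * (d ^ (2 ^ (l + 1))) ^ i := by
      intro l
      induction l with
      | zero =>
        obtain ⟨i, hi⟩ := hPd d' hd' hd'P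
        exact ⟨i, by rw [pow_zero, pow_one, pow_one, hqd, hi, pow_one, pow_two]⟩
      | succ l ih =>
        obtain ⟨i, hi⟩ := ih
        set x := a ^ (2 ^ l) with hx
        have hxQ : x ∈ Q := pow_mem (c.C_le ha) _
        have hconj : x⁻¹ * (d * d) * x ∈ T ∧ P (x⁻¹ * (d * d) * x) := by
          refine ⟨c.mem_T_of_mem_Q (mul_mem (mul_mem (inv_mem hxQ) (c.T_le (mul_mem hdT hdT))) hxQ) ?_,
            fun w => ?_⟩
          · rw [mul_smul, mul_smul, hsq d hdT
              ⟨x • α, Hyp.cent_fix (mem_centralizer_singleton_iff.1 (c.Q_le hxQ)) (c.T_fixl t c.t_mem)⟩,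
              inv_smul_smul]
          · rw [mul_smul, mul_smul, hsq d hdT
              ⟨x • (w : Ω), Hyp.cent_fix (mem_centralizer_singleton_iff.1 (c.Q_le hxQ)) w.2⟩,
              inv_smul_smul]
        obtain ⟨j, hj⟩ := hPd _ hconj.1 hconj.2
        have hjodd : Odd j := by
          by_contra hje
          obtain ⟨r, hr⟩ := Int.not_odd_iff_even.1 hje
          refine c.t_ne ?_
          have h5 : (x⁻¹ * (d * d) * x) ^ (2 ^ v) = t := by
            have h6 : (x⁻¹ * (d * d) * x) ^ (2 ^ v) = x⁻¹ * (d * d) ^ (2 ^ v) * x := by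
              simpa using conj_pow (i := 2 ^ v) (a := x⁻¹) (b := d * d)
            rw [h6, ← pow_two, ← pow_mul, ← pow_succ', hdt, mul_assoc,
              ← mem_centralizer_singleton_iff.1 (c.Q_le hxQ), inv_mul_cancel_left]
          rw [← h5, hj, hr, ← pow_two, ← zpow_natCast (((d ^ 2) ^ (r + r) : X)), ← zpow_natCast d 2,
            ← zpow_mul, ← zpow_mul,
            show ((2 : ℕ) : ℤ) * ((r + r) * ((2 ^ v : ℕ) : ℤ)) = ((2 ^ (v + 2) : ℕ) : ℤ) * r by
              push_cast; ring, zpow_mul, zpow_natCast, hdv, one_zpow]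
        obtain ⟨s, rfl⟩ := hjodd
        refine ⟨(s + 1) * i, ?_⟩
        rw [pow_succ (2 : ℕ) l, pow_mul, hi, pow_mul a, ← hx, pow_two, pow_two]
        set D := d ^ (2 ^ (l + 1)) with hD
        have hDx : x⁻¹ * D * x = D ^ (2 * s + 1) := by
          have h6 : (x⁻¹ * (d * d) * x) ^ (2 ^ l) = x⁻¹ * (d * d) ^ (2 ^ l) * x := by
            simpa using conj_pow (i := 2 ^ l) (a := x⁻¹) (b := d * d)
          rw [hj, ← pow_two, ← pow_mul, ← pow_succ', ← hD, ← zpow_natCast ((d ^ 2) ^ (2 * s + 1)),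
            ← zpow_mul, mul_comm, zpow_mul, zpow_natCast, ← pow_mul, ← pow_succ', ← hD] at h6
          exact h6.symm
        have hDx' : x⁻¹ * D ^ i * x = D ^ ((2 * s + 1) * i) := by
          have h6 : (x⁻¹ * D * x) ^ i = x⁻¹ * D ^ i * x := by
            simpa using conj_zpow (i := i) (a := x⁻¹) (b := D)
          rw [← h6, hDx, zpow_mul]
        calc x * D ^ i * (x * D ^ i) = x * x * (x⁻¹ * D ^ i * x) * D ^ i := by group
          _ = x * x * D ^ ((2 * s + 1) * i + i) := by rw [hDx', zpow_add]; group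
          _ = x * x * (d ^ 2 ^ (l + 1 + 1)) ^ ((s + 1) * i) := by
            rw [hD, pow_succ (2 : ℕ) (l + 1), pow_mul, ← zpow_natCast _ 2, ← zpow_mul]
            congr 2
            push_cast; ring
    obtain ⟨i, hi⟩ := hstep (v + 1)
    rw [hqp, hdv, one_zpow, mul_one] at hi
    have htC : t ∈ C := by
      have : t = e * a ^ (2 ^ (v + 1)) := by rw [← hi, ← mul_assoc, c.e_sq, one_mul]
      rw [this]; exact mul_mem c.e_mem (pow_mem ha _)
    exact c.t_ne (c.C_free t htC α (c.T_fixl t c.t_mem))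
  · -- odd case: `τ` inverts the image of `C`
    have hτC : ∀ z ∈ κ.range, τ * z * τ ∈ κ.range := by
      rintro _ ⟨⟨x, hx⟩, rfl⟩
      have hmem : d₀ * x * d₀⁻¹ ∈ Q :=
        mul_mem (mul_mem (c.T_le hd₀) (c.C_le hx)) (inv_mem (c.T_le hd₀))
      obtain ⟨x', hx', e', he', hxe⟩ := c.Q_dec _ hmem
      have h2 : τ * κ ⟨x, hx⟩ * τ = κ ⟨x', hx'⟩ * ρ ⟨e', hTC e' he'⟩ := by
        have := congrArg ρ (show (⟨d₀, hTC d₀ hd₀⟩ : centralizer ({t} : Set X)) *
          Subgroup.inclusion (c.C_le.trans c.Q_le) ⟨x, hx⟩ * (⟨d₀, hTC d₀ hd₀⟩)⁻¹ =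
          Subgroup.inclusion (c.C_le.trans c.Q_le) ⟨x', hx'⟩ * ⟨e', hTC e' he'⟩ from Subtype.ext hxe)
        rwa [map_mul, map_mul, map_mul, map_inv, sq_one_inv hτ2] at this
      rcases himg e' he' with h3 | h3
      · exact ⟨⟨x', hx'⟩, by rw [h2, h3, mul_one]⟩
      · exfalso
        rw [h3] at h2
        have h4 : τ = κ ⟨x⁻¹ * x', mul_mem (inv_mem hx) hx'⟩ := by
          have h5 : τ * κ ⟨x, hx⟩ = κ ⟨x', hx'⟩ := mul_right_cancel h2
          rw [show (⟨x⁻¹ * x', mul_mem (inv_mem hx) hx'⟩ : C) = ⟨x, hx⟩⁻¹ * ⟨x', hx'⟩ from rfl,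
            map_mul, map_inv, ← h5]
          have hcm : ∀ y : C, κ y * κ ⟨x, hx⟩ = κ ⟨x, hx⟩ * κ y := fun y => by
            rw [← map_mul, ← map_mul, cyc_comm y]
          have h6 : τ = κ ⟨x', hx'⟩ * (κ ⟨x, hx⟩)⁻¹ := by rw [← h5, mul_inv_cancel_right]
          rw [h5, h6]
          have h7 := hcm ⟨x', hx'⟩
          calc κ ⟨x', hx'⟩ * (κ ⟨x, hx⟩)⁻¹
              = (κ ⟨x, hx⟩)⁻¹ * (κ ⟨x, hx⟩ * κ ⟨x', hx'⟩) * (κ ⟨x, hx⟩)⁻¹ := by group
            _ = (κ ⟨x, hx⟩)⁻¹ * κ ⟨x', hx'⟩ := by rw [← h7]; group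
        have h5 : (x⁻¹ * x') • α = α := by
          have := congrArg (fun z : FixGroup Ω t => ((z • αF : F) : Ω)) h4
          simp only [hτα] at this
          exact this.symm
        refine hτ1 ?_
        rw [h4, show (⟨x⁻¹ * x', mul_mem (inv_mem hx) hx'⟩ : C) = 1 from Subtype.ext
          (c.C_free _ (mul_mem (inv_mem hx) hx') α h5), map_one]
    haveI : IsCyclic κ.range := isCyclic_of_surjective _ κ.rangeRestrict_surjective
    let σ : κ.range →* κ.range :=
      { toFun := fun z => ⟨τ * z * τ, hτC z z.2⟩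
        map_one' := Subtype.ext (by simpa using hτ2)
        map_mul' := fun x y => Subtype.ext (by
          simp only [Subgroup.coe_mul]
          calc τ * (↑x * ↑y) * τ = τ * ↑x * (τ * τ) * ↑y * τ := by rw [hτ2, mul_one]; group
            _ = τ * ↑x * τ * (τ * ↑y * τ) := by group) }
    have hσσ : ∀ z, σ (σ z) = z := fun z => Subtype.ext (by
      show τ * (τ * ↑z * τ) * τ = ↑z
      calc τ * (τ * (z : FixGroup Ω t) * τ) * τ = (τ * τ) * ↑z * (τ * τ) := by group
        _ = ↑z := by rw [hτ2, one_mul, mul_one])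
    have hκfree : ∀ z : κ.range, ∀ w : F, (z : FixGroup Ω t) • w = w → z = 1 := by
      rintro ⟨_, x, rfl⟩ w hw
      refine Subtype.ext ?_
      show κ x = 1
      rw [show x = 1 from Subtype.ext (c.C_free _ x.2 _ (congrArg Subtype.val hw)), map_one]
    have hεmem : εF ∈ κ.range := ⟨⟨e, c.e_mem⟩, rfl⟩
    have hfix : ∀ z, σ z = z → z = 1 ∨ (z : FixGroup Ω t) = εF := by
      intro z hz
      have hz' : τ * (z : FixGroup Ω t) * τ = z := congrArg Subtype.val hz
      have h2 : τ • ((z : FixGroup Ω t) • αF) = (z : FixGroup Ω t) • αF := by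
        rw [← mul_smul]
        conv_rhs => rw [← hz', mul_smul, hτα]
      rcases fix_cases h' hb' hFne hτ1 hτ2 hτα hτβ h2 with h3 | h3
      · exact Or.inl (hκfree z αF h3)
      · refine Or.inr ?_
        have h4 : εF • αF = βF := Subtype.ext c.e_swap
        have h5 := hκfree (z⁻¹ * ⟨εF, hεmem⟩) αF (by
          show ((z : FixGroup Ω t)⁻¹ * εF) • αF = αF
          rw [mul_smul, h4, ← h3, inv_smul_smul])
        exact (congrArg Subtype.val (inv_mul_eq_one.1 h5))
    obtain ⟨γ, hγ⟩ := IsCyclic.exists_generator (α := κ.range)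
    have hNall : ∀ z : κ.range, z * σ z = 1 := by
      rcases hfix _ (show σ (γ * σ γ) = γ * σ γ by rw [map_mul, hσσ, cyc_comm]) with h2 | h2
      · intro z
        obtain ⟨i, rfl⟩ := Subgroup.mem_zpowers_iff.1 (hγ z)
        rw [← normHom_apply (σ := σ), map_zpow, normHom_apply, h2, one_zpow]
      · exfalso
        -- semidihedral: `εF` is isolated, so central
        have hεne : εF ≠ 1 := fun h3 => hεfree αF (by rw [h3, one_smul])
        have hk2 : Nat.card (commHom σ).ker ≤ 2 := by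
          let ι : (commHom σ).ker → Bool := fun z => decide ((z : κ.range) = 1)
          refine (Nat.card_le_card_of_injective ι ?_).trans (by simp)
          intro z z' hzz
          have hmem : ∀ y : (commHom σ).ker, σ (y : κ.range) = y := fun y => by
            have := y.2
            rwa [MonoidHom.mem_ker, commHom_apply, mul_inv_eq_one] at this
          simp only [ι, decide_eq_decide] at hzz
          refine Subtype.ext ?_
          rcases hfix _ (hmem z) with h3 | h3
          · rw [h3, (hzz.1 h3)]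
          · rcases hfix _ (hmem z') with h4 | h4
            · rw [h4, hzz.2 h4]
            · exact Subtype.ext (h3.trans h4.symm)
        have hJI : (normHom σ).ker ≤ (commHom σ).range := by
          refine (Subgroup.eq_of_le_of_card_ge (range_commHom_le hσσ) ?_).ge
          have h3 := card_ker_eq (σ := σ)
          have h4 : 2 ≤ Nat.card (normHom σ).range := by
            refine Finite.one_lt_card_iff_nontrivial.2
              ⟨⟨⟨normHom σ γ, γ, rfl⟩, 1, fun h5 => hεne ?_⟩⟩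
            have h6 : γ * σ γ = 1 := congrArg Subtype.val h5
            rw [← h2, h6]; rfl
          by_contra hh
          have h5 := Nat.mul_le_mul hk2 (le_refl (Nat.card (commHom σ).range))
          have h6 := Nat.mul_le_mul_left (Nat.card (normHom σ).ker) h4
          omega
        have hiso : ∀ r : FixGroup Ω t, r * εF * r⁻¹ ∈ (P' : Subgroup (FixGroup Ω t)) →
            r * εF * r⁻¹ = εF := by
          intro r hr
          set z := r * εF * r⁻¹ with hz
          have hzfree : ∀ w : F, z • w ≠ w := fun w hw => by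
            rw [hz, mul_smul, mul_smul] at hw
            exact hεfree _ (eq_inv_smul_iff.2 hw)
          have hz2 : z * z = 1 := by
            rw [hz, show r * εF * r⁻¹ * (r * εF * r⁻¹) = r * (εF * εF) * r⁻¹ from by group, hε2]
            group
          have hz1 : z ≠ 1 := fun h3 => hzfree αF (by rw [h3, one_smul])
          obtain ⟨p, hp, hpz⟩ := hP' z hr
          obtain ⟨x, hx, y, hy, rfl⟩ := c.Q_dec p hp
          have hpz' : z = κ ⟨x, hx⟩ * ρ ⟨y, hTC y hy⟩ := by
            rw [← hpz, show κ ⟨x, hx⟩ = ρ (Subgroup.inclusion (c.C_le.trans c.Q_le) ⟨x, hx⟩) from rfl,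
              ← map_mul]
            rfl
          rcases himg y hy with h3 | h3 <;> rw [h3] at hpz'
          · rw [mul_one] at hpz'
            exact cyclic_unique_inv (C := κ.range) inferInstance ⟨_, hpz'.symm⟩ hεmem hz1 hεne hz2 hε2
          · exfalso
            set xs : κ.range := ⟨κ ⟨x, hx⟩, _, rfl⟩
            have hJ : xs ∈ (normHom σ).ker := by
              refine Subtype.ext ?_
              show κ ⟨x, hx⟩ * (τ * κ ⟨x, hx⟩ * τ) = 1
              calc κ ⟨x, hx⟩ * (τ * κ ⟨x, hx⟩ * τ) = (κ ⟨x, hx⟩ * τ) * (κ ⟨x, hx⟩ * τ) := by group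
                _ = 1 := by rw [← hpz', hz2]
            obtain ⟨m, hm⟩ := hJI hJ
            have hm' : τ * (m : FixGroup Ω t) * τ * (m : FixGroup Ω t)⁻¹ = κ ⟨x, hx⟩ :=
              congrArg Subtype.val hm
            have hcm : τ * (m : FixGroup Ω t) * τ * (m : FixGroup Ω t)⁻¹ =
                (m : FixGroup Ω t)⁻¹ * (τ * (m : FixGroup Ω t) * τ) :=
              congrArg Subtype.val (cyc_comm (σ m) m⁻¹)
            refine hzfree ((m : FixGroup Ω t)⁻¹ • αF) ?_
            rw [hpz', ← hm', hcm, ← mul_smul,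
              show (m : FixGroup Ω t)⁻¹ * (τ * m * τ) * τ * (m : FixGroup Ω t)⁻¹
                = (m : FixGroup Ω t)⁻¹ * τ * (m * (τ * τ) * (m : FixGroup Ω t)⁻¹) from by group,
              hτ2, mul_one, mul_inv_cancel, mul_one, mul_smul, hτα]
        have hεP : εF ∈ (P' : Subgroup (FixGroup Ω t)) :=
          ⟨⟨e, heC⟩, Subgroup.mem_subgroupOf.2 (c.C_le c.e_mem), rfl⟩
        obtain ⟨N, hN, hNodd, hNc⟩ := S0215.result P' εF
          (orderOf_eq_prime (by rw [pow_two, hε2]) hεne) hεP hiso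
        have hNb := h'.normal_odd_eq_bot hN hNodd
        have hcent : ∀ r, εF * r = r * εF := fun r => by
          have h3 := hNc r
          rw [hNb, Subgroup.mem_bot] at h3
          calc εF * r = εF * r * εF⁻¹ * r⁻¹ * r * εF := by group
            _ = r * εF := by rw [h3, one_mul]
        obtain ⟨g', hg1, hg2⟩ : ∃ g' : FixGroup Ω t, g' • αF = αF ∧ ∃ w, w ≠ αF ∧ w ≠ βF ∧
            g' • βF = w := by
          haveI := Fintype.ofFinite F
          obtain ⟨w, hw⟩ : ∃ w : F, w ∉ ({αF, βF} : Finset F) := by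
            by_contra hh
            push Not at hh
            have h3 : (Finset.univ : Finset F).card ≤ ({αF, βF} : Finset F).card :=
              Finset.card_le_card fun w _ => hh w
            rw [Finset.card_univ, ← Nat.card_eq_fintype_card, Finset.card_pair hFne] at h3
            have : 4 ≤ Nat.card F := h'.large
            omega
          simp only [Finset.mem_insert, Finset.mem_singleton, not_or] at hw
          obtain ⟨g', hg1, hg2⟩ := h'.two αF βF αF w hFne (Ne.symm hw.1)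
          exact ⟨g', hg1, w, hw.1, hw.2, hg2⟩
        obtain ⟨w, -, hw2, hg2⟩ := hg2
        refine hw2 ?_
        rw [← hg2, show βF = εF • αF from (Subtype.ext c.e_swap).symm, ← mul_smul, ← hcent, mul_smul,
          hg1]
    have hq2 : q * q ∈ T := by
      refine c.mem_T_of_mem_Q (mul_mem hqQ hqQ) ?_
      have hqC := c.Q_le hqQ
      have h2 : ρ ⟨q, hqC⟩ = κ ⟨a, ha⟩ * τ := by
        rw [← h1, show κ ⟨a, ha⟩ = ρ (Subgroup.inclusion (c.C_le.trans c.Q_le) ⟨a, ha⟩) from rfl,
          ← map_mul]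
        exact congrArg ρ (Subtype.ext hqd)
      have h3 : ρ ⟨q, hqC⟩ * ρ ⟨q, hqC⟩ = 1 := by
        rw [h2]
        have := congrArg Subtype.val (hNall ⟨κ ⟨a, ha⟩, _, rfl⟩)
        calc κ ⟨a, ha⟩ * τ * (κ ⟨a, ha⟩ * τ) = κ ⟨a, ha⟩ * (τ * κ ⟨a, ha⟩ * τ) := by group
          _ = 1 := this
      have h4 := congrArg (fun z : FixGroup Ω t => ((z • αF : F) : Ω)) h3
      simp only [one_smul, ← map_mul] at h4
      exact h4
    have h2 : e * t ∈ T := by
      rw [← hqp, pow_succ', pow_mul, pow_two]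
      exact pow_mem hq2 _
    have h3 : e ∈ T := by simpa [mul_assoc, c.t_sq] using mul_mem h2 c.t_mem
    exact c.e_free α (c.T_fixl e h3)

/-- Every involution fixes at most two points. -/
theorem bound2_all : ∀ (n : ℕ) (X : Type u) (Ω : Type u) [Group X] [Finite X] [MulAction X Ω]
    [Finite Ω], Hyp X Ω → Nat.card Ω = n → Bound2 X Ω := by
  intro n
  induction n using Nat.strong_induction_on with
  | _ n ih =>
    intro X Ω _ _ _ _ h hn x hx1 hx2 a b d hxa hxb hxd hab had hbd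
    obtain ⟨β, t, e, T, C, Q, c, ht⟩ := h.exists_cfg a x hx2 hxa
    obtain rfl : t = x := ht.resolve_left hx1
    have h' := fix_hyp h c hxa hxb hxd hab had hbd
    refine descent_step h c h' (ih _ ?_ _ _ h' rfl)
    rw [← hn]
    obtain ⟨w, hw⟩ : ∃ w : Ω, t • w ≠ w := by
      by_contra hh; push Not at hh; exact hx1 (h.faith t hh)
    exact Finite.card_subtype_lt hw

end Cfsg.Agent.CZFact
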