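import Mathlib

/-!
# Two-transitive groups of even degree with Z-groups as point stabilisers

General facts: two-point stabilisers are cyclic, there are involutions with fixed points,
and a standard configuration `(α, β, t, e, T, C, Q)` exists.
-/

set_option autoImplicit false
set_option linter.style.haveILetI false
set_option linter.unusedSectionVars false

namespace Cfsg.Agent.CZFact

open Subgroup MulAction

universe u

variable {X : Type u} [Group X] [Finite X] {Ω : Type u} [MulAction X Ω] [Finite Ω]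

/-- The situation studied here. -/
structure Hyp (X : Type u) (Ω : Type u) [Group X] [MulAction X Ω] : Prop where
  faith : ∀ g : X, (∀ w : Ω, g • w = w) → g = 1
  two : ∀ a b c d : Ω, a ≠ b → c ≠ d → ∃ g : X, g • a = c ∧ g • b = d
  even : Even (Nat.card Ω)
  large : 4 ≤ Nat.card Ω
  zst : ∀ a : Ω, IsZGroup (stabilizer X a)
  semi : ∃ C : Subgroup X, IsCyclic C ∧ (∀ c ∈ C, ∀ w : Ω, c • w = w → c = 1) ∧
    Nat.card C = 2 ^ (Nat.card Ω).factorization 2

theorem sq_one_inv {G : Type*} [Group G] {x : G} (h : x * x = 1) : x⁻¹ = x :=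
  inv_eq_of_mul_eq_one_right h

theorem cyclic_unique_inv {G : Type*} [Group G] [Finite G] {C : Subgroup G} (hc : IsCyclic C)
    {x y : G} (hx : x ∈ C) (hy : y ∈ C) (hx1 : x ≠ 1) (hy1 : y ≠ 1) (hx2 : x * x = 1)
    (hy2 : y * y = 1) : x = y := by
  classical
  haveI := hc
  haveI := Fintype.ofFinite C
  by_contra hne
  have hle := IsCyclic.card_pow_eq_one_le (α := C) (n := 2) (by norm_num)
  have hsub : ({1, ⟨x, hx⟩, ⟨y, hy⟩} : Finset C) ⊆
      Finset.univ.filter (fun a : C => a ^ 2 = 1) := by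
    intro a ha
    simp only [Finset.mem_insert, Finset.mem_singleton] at ha
    rw [Finset.mem_filter]
    refine ⟨Finset.mem_univ _, ?_⟩
    rcases ha with rfl | rfl | rfl
    · exact one_pow 2
    · exact Subtype.ext (by simpa [pow_two] using hx2)
    · exact Subtype.ext (by simpa [pow_two] using hy2)
  have h3 : ({1, ⟨x, hx⟩, ⟨y, hy⟩} : Finset C).card = 3 := by
    rw [Finset.card_insert_of_notMem, Finset.card_insert_of_notMem, Finset.card_singleton]
    · simp only [Finset.mem_singleton, Subtype.mk.injEq]; exact hne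
    · simp only [Finset.mem_insert, Finset.mem_singleton, Subtype.ext_iff, OneMemClass.coe_one]
      push Not
      exact ⟨fun e => hx1 e.symm, fun e => hy1 e.symm⟩
  have := Finset.card_le_card hsub
  omega

theorem exists_inv_of_isPGroup {G : Type*} [Group G] [Finite G] {T : Subgroup G}
    (hT : IsPGroup 2 T) (hne : T ≠ ⊥) : ∃ t ∈ T, t ≠ 1 ∧ t * t = 1 := by
  haveI : Fact (Nat.Prime 2) := ⟨Nat.prime_two⟩
  haveI : Nontrivial T := (Subgroup.nontrivial_iff_ne_bot T).2 hne
  have h2 : 2 ∣ Nat.card T := by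
    obtain ⟨k, hk⟩ := IsPGroup.iff_card.1 hT
    have : 1 < Nat.card T := Finite.one_lt_card
    rcases Nat.eq_zero_or_pos k with rfl | hk0
    · rw [hk] at this; simp at this
    · rw [hk]; exact dvd_pow_self 2 (by omega)
  obtain ⟨t, ht⟩ := exists_prime_orderOf_dvd_card' 2 h2
  refine ⟨t, t.2, ?_, ?_⟩
  · intro h
    rw [OneMemClass.coe_eq_one.1 h, orderOf_one] at ht
    omega
  · have h := pow_orderOf_eq_one t
    rw [ht, pow_two] at h
    exact congrArg Subtype.val h

theorem fixes_zpow {g : X} {w : Ω} (h : g • w = w) (m : ℤ) : g ^ m • w = w :=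
  mem_stabilizer_iff.1 (Subgroup.zpow_mem _ (mem_stabilizer_iff.2 h) m)

theorem fixes_inv {g : X} {w : Ω} (h : g • w = w) : g⁻¹ • w = w := inv_smul_eq_iff.2 h.symm

namespace Hyp

variable (h : Hyp X Ω)
include h

theorem exists_ne (a : Ω) : ∃ b, b ≠ a := by
  haveI : Nontrivial Ω := Finite.one_lt_card_iff_nontrivial.1 (by have := h.large; omega)
  exact _root_.exists_ne a

theorem trans (a c : Ω) : ∃ g : X, g • a = c := by
  obtain ⟨b, hb⟩ := h.exists_ne a
  obtain ⟨d, hd⟩ := h.exists_ne c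
  obtain ⟨g, hg, -⟩ := h.two a b c d hb.symm hd.symm
  exact ⟨g, hg⟩

theorem orbit_eq (a : Ω) : orbit X a = Set.univ := by
  ext c
  simp only [Set.mem_univ, iff_true]
  exact h.trans a c

theorem card_stabilizer (a : Ω) :
    Nat.card (stabilizer X a) * Nat.card Ω = Nat.card X := by
  have h1 := index_stabilizer X a
  rw [h.orbit_eq a, Set.ncard_univ] at h1
  rw [← h1]
  exact Subgroup.card_mul_index _

theorem normal_transitive {N : Subgroup X} (hN : N.Normal) (hne : N ≠ ⊥) (a c : Ω) :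
    ∃ g ∈ N, g • a = c := by
  by_cases hac : c = a
  · exact ⟨1, one_mem _, by rw [one_smul, hac]⟩
  obtain ⟨g, hg, hg1⟩ := (Subgroup.ne_bot_iff_exists_ne_one.1 hne |> fun ⟨⟨g, hg⟩, h1⟩ =>
    (⟨g, hg, fun e => h1 (Subtype.ext e)⟩ : ∃ g ∈ N, g ≠ 1))
  have hmv : ∃ w : Ω, g • w ≠ w := by
    by_contra hh; push Not at hh; exact hg1 (h.faith g hh)
  obtain ⟨w, hw⟩ := hmv
  obtain ⟨k, hk1, hk2⟩ := h.two w (g • w) a c (Ne.symm hw) (Ne.symm hac)
  refine ⟨k * g * k⁻¹, hN.conj_mem g hg k, ?_⟩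
  rw [← hk1, mul_smul, mul_smul, inv_smul_smul, hk2]

theorem card_dvd_of_normal {N : Subgroup X} (hN : N.Normal) (hne : N ≠ ⊥) :
    Nat.card Ω ∣ Nat.card N := by
  obtain ⟨a⟩ : Nonempty Ω := (Nat.card_pos_iff.1 (by have := h.large; omega)).1
  have h1 := index_stabilizer N a
  have h2 : orbit N a = Set.univ := by
    ext c
    simp only [Set.mem_univ, iff_true]
    obtain ⟨g, hg, hgc⟩ := h.normal_transitive hN hne a c
    exact ⟨⟨g, hg⟩, hgc⟩
  rw [h2, Set.ncard_univ] at h1
  rw [← h1]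
  exact Subgroup.index_dvd_card _

theorem normal_odd_eq_bot {N : Subgroup X} (hN : N.Normal) (ho : Odd (Nat.card N)) : N = ⊥ := by
  by_contra hne
  have h1 := Odd.of_dvd_nat ho (h.card_dvd_of_normal hN hne)
  exact Nat.not_even_iff_odd.2 h1 h.even

theorem sylow_not_cyclic (P : Sylow 2 X) : ¬ IsCyclic (P : Subgroup X) := by
  intro hcyc
  haveI : Fact (Nat.Prime 2) := ⟨Nat.prime_two⟩
  have hev : 2 ∣ Nat.card X := by
    obtain ⟨a⟩ : Nonempty Ω := (Nat.card_pos_iff.1 (by have := h.large; omega)).1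
    exact (even_iff_two_dvd.1 h.even).trans ⟨_, by rw [mul_comm]; exact (h.card_stabilizer a).symm⟩
  have hmf : (Nat.card X).minFac = 2 := (Nat.minFac_eq_two_iff _).2 hev
  have hc := IsCyclic.normalizer_le_centralizer (P := P) hmf hcyc
  have hodd : Odd (Nat.card (MonoidHom.transferSylow P hc).ker) := by
    rw [← Nat.not_even_iff_odd, even_iff_two_dvd]
    exact MonoidHom.not_dvd_card_ker_transferSylow P hc
  have hbot := h.normal_odd_eq_bot inferInstance hodd
  have hcomp := MonoidHom.ker_transferSylow_isComplement' P hc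
  have hcard := hcomp.card_mul_card
  rw [hbot, Subgroup.card_bot, one_mul] at hcard
  obtain ⟨k, hk⟩ := IsPGroup.iff_card.1 P.isPGroup'
  obtain ⟨a⟩ : Nonempty Ω := (Nat.card_pos_iff.1 (by have := h.large; omega)).1
  obtain ⟨b, hb⟩ := h.exists_ne a
  -- the stabiliser is transitive on an odd number of points
  have h1 := index_stabilizer (stabilizer X a) b
  have h2 : orbit (stabilizer X a) b = {a}ᶜ := by
    ext c
    constructor
    · rintro ⟨g, rfl⟩ hga
      refine hb ?_
      have : (g : X) • b = (g : X) • a := (Set.mem_singleton_iff.1 hga).trans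
        (mem_stabilizer_iff.1 g.2).symm
      exact MulAction.injective (g : X) this
    · intro hc
      obtain ⟨g, hg1, hg2⟩ := h.two a b a c hb.symm (fun e => hc e.symm)
      exact ⟨⟨g, mem_stabilizer_iff.2 hg1⟩, hg2⟩
  rw [h2, Set.ncard_compl, Set.ncard_singleton] at h1
  have h3 : Nat.card Ω - 1 ∣ Nat.card X :=
    (h1 ▸ Subgroup.index_dvd_card _).trans (Subgroup.card_subgroup_dvd_card _)
  rw [← hcard, hk] at h3
  obtain ⟨j, -, hj⟩ := (Nat.dvd_prime_pow Nat.prime_two).1 h3
  have he := h.even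
  have hl := h.large
  rcases Nat.eq_zero_or_pos j with rfl | hj0
  · simp at hj; omega
  · have : 2 ∣ Nat.card Ω - 1 := hj ▸ dvd_pow_self 2 (by omega)
    obtain ⟨r, hr⟩ := he
    omega

/-- A subgroup of a point stabiliser normalised by it and fixing another point is trivial. -/
theorem eq_one_of_normalized {U : Subgroup X} {a b : Ω} (hab : a ≠ b) (hUa : U ≤ stabilizer X a)
    (hn : ∀ g : X, g • a = a → ∀ z ∈ U, g * z * g⁻¹ ∈ U) (hUb : ∀ z ∈ U, z • b = b)
    {z : X} (hz : z ∈ U) : z = 1 := by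
  refine h.faith z fun c => ?_
  rcases eq_or_ne c a with rfl | hca
  · exact mem_stabilizer_iff.1 (hUa hz)
  obtain ⟨g, hg1, hg2⟩ := h.two a c a b hca.symm hab
  have := hUb _ (hn g hg1 z hz)
  rw [← hg2, mul_smul, mul_smul, inv_smul_smul] at this
  exact MulAction.injective g this

omit [Finite Ω] in
/-- Elements of the derived group of a point stabiliser span normalised cyclic subgroups. -/
theorem conj_mem_zpowers (a : Ω) {g : X} (hg : g • a = a) {z : stabilizer X a}
    (hz : z ∈ _root_.commutator (stabilizer X a)) {w : X} (hw : w ∈ zpowers (z : X)) :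
    g * w * g⁻¹ ∈ zpowers (z : X) := by
  haveI := h.zst a
  haveI := IsZGroup.isCyclic_commutator (stabilizer X a)
  obtain ⟨j, rfl⟩ := Subgroup.mem_zpowers_iff.1 hw
  let gs : stabilizer X a := ⟨g, mem_stabilizer_iff.2 hg⟩
  obtain ⟨m, hm⟩ := MonoidHom.map_cyclic
    ((MulAut.conjNormal gs : MulAut (_root_.commutator (stabilizer X a))).toMonoidHom)
  have h1 := congrArg (fun y : _root_.commutator (stabilizer X a) => ((y : stabilizer X a) : X))
    (hm (⟨z, hz⟩ ^ j))
  simp only [MulEquiv.coe_toMonoidHom, MulAut.conjNormal_apply, Subgroup.coe_mul,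
    InvMemClass.coe_inv, SubgroupClass.coe_zpow, gs] at h1
  rw [h1]
  exact Subgroup.zpow_mem _ (Subgroup.zpow_mem _ (mem_zpowers _) _) _

/-- Two-point stabilisers are cyclic. -/
theorem isCyclic_two {a b : Ω} (hab : a ≠ b) :
    IsCyclic (stabilizer X a ⊓ stabilizer X b : Subgroup X) := by
  haveI := h.zst a
  set S := stabilizer X a with hS
  let f : (S ⊓ stabilizer X b : Subgroup X) →* Abelianization S :=
    Abelianization.of.comp (Subgroup.inclusion inf_le_left)
  haveI : IsCyclic (Abelianization S) := IsZGroup.isCyclic_abelianization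
  refine isCyclic_of_injective f ((injective_iff_map_eq_one f).2 ?_)
  rintro ⟨z, hz⟩ hfz
  have hzc : (⟨z, hz.1⟩ : S) ∈ _root_.commutator S := by
    have h1 : (⟨z, hz.1⟩ : S) ∈ (Abelianization.of (G := S)).ker := hfz
    rwa [Abelianization.ker_of] at h1
  refine Subtype.ext ?_
  refine h.eq_one_of_normalized (U := zpowers z) hab ((zpowers_le).2 hz.1)
    (fun g hg w hw => h.conj_mem_zpowers a hg hzc hw) (fun w hw => ?_) (mem_zpowers z)
  obtain ⟨j, rfl⟩ := Subgroup.mem_zpowers_iff.1 hw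
  exact fixes_zpow (mem_stabilizer_iff.1 hz.2) j

theorem unique_inv {a b : Ω} (hab : a ≠ b) {x y : X} (hx1 : x ≠ 1) (hy1 : y ≠ 1)
    (hx2 : x * x = 1) (hy2 : y * y = 1) (hxa : x • a = a) (hxb : x • b = b) (hya : y • a = a)
    (hyb : y • b = b) : x = y :=
  cyclic_unique_inv (h.isCyclic_two hab)
    ⟨mem_stabilizer_iff.2 hxa, mem_stabilizer_iff.2 hxb⟩
    ⟨mem_stabilizer_iff.2 hya, mem_stabilizer_iff.2 hyb⟩ hx1 hy1 hx2 hy2

theorem two_comm {a b : Ω} (hab : a ≠ b) {x y : X} (hxa : x • a = a) (hxb : x • b = b)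
    (hya : y • a = a) (hyb : y • b = b) : x * y = y * x := by
  haveI := h.isCyclic_two hab
  haveI := IsCyclic.isMulCommutative (α := (stabilizer X a ⊓ stabilizer X b : Subgroup X))
  exact congrArg Subtype.val (mul_comm' (M := (stabilizer X a ⊓ stabilizer X b : Subgroup X)) ⟨x, mem_stabilizer_iff.2 hxa, mem_stabilizer_iff.2 hxb⟩
    ⟨y, mem_stabilizer_iff.2 hya, mem_stabilizer_iff.2 hyb⟩)

omit [Finite X] [Finite Ω] h in
theorem cent_fix {t g : X} (hg : g * t = t * g) {w : Ω} (hw : t • w = w) :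
    t • g • w = g • w := by
  rw [← mul_smul, ← hg, mul_smul, hw]

/-- The centraliser of an involution is two-transitive on its fixed points. -/
theorem exists_cent_map {t : X} (ht1 : t ≠ 1) (ht2 : t * t = 1) {a b c d : Ω} (hab : a ≠ b)
    (hcd : c ≠ d) (ha : t • a = a) (hb : t • b = b) (hc : t • c = c) (hd : t • d = d) :
    ∃ g : X, g * t = t * g ∧ g • a = c ∧ g • b = d := by
  obtain ⟨g, hga, hgb⟩ := h.two a b c d hab hcd
  refine ⟨g, ?_, hga, hgb⟩
  have he : g * t * g⁻¹ = t := by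
    refine h.unique_inv hcd (fun e => ht1 (by simpa using e)) ht1 ?_ ht2 ?_ ?_ hc hd
    · rw [show g * t * g⁻¹ * (g * t * g⁻¹) = g * (t * t) * g⁻¹ from by group, ht2]; group
    · rw [← hga, mul_smul, mul_smul, inv_smul_smul, ha]
    · rw [← hgb, mul_smul, mul_smul, inv_smul_smul, hb]
  calc g * t = g * t * g⁻¹ * g := by group
    _ = t * g := by rw [he]

end Hyp

/-- The standard configuration. -/
structure Cfg (α β : Ω) (t e : X) (T C Q : Subgroup X) : Prop where
  ne : α ≠ β
  t_ne : t ≠ 1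
  t_sq : t * t = 1
  t_mem : t ∈ T
  e_sq : e * e = 1
  e_free : ∀ w : Ω, e • w ≠ w
  e_swap : e • α = β
  te : t * e = e * t
  T_cyc : IsCyclic T
  T_two : IsPGroup 2 T
  T_fixl : ∀ d ∈ T, d • α = α
  T_fixr : ∀ d ∈ T, d • β = β
  T_max : ∀ x : X, x • α = α → IsPGroup 2 (zpowers x) → (∀ d ∈ T, d * x = x * d) → x ∈ T
  e_norm : ∀ d ∈ T, e * d * e ∈ T
  C_cyc : IsCyclic C
  C_free : ∀ c ∈ C, ∀ w : Ω, c • w = w → c = 1
  e_mem : e ∈ C
  C_le : C ≤ Q
  T_le : T ≤ Q
  Q_le : Q ≤ centralizer {t}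
  Q_two : IsPGroup 2 Q
  Q_dec : ∀ q ∈ Q, ∃ c ∈ C, ∃ d ∈ T, q = c * d
  Q_card : Nat.card Q = 2 ^ (Nat.card (centralizer ({t} : Set X))).factorization 2
  C_card : Nat.card C = 2 ^ {w : Ω | t • w = w}.ncard.factorization 2

theorem factorization_two_eq {a b : ℕ} (ha : a ≠ 0) (hab : a ∣ b) (hb : b ≠ 0)
    (h : 2 ^ b.factorization 2 ∣ a) : a.factorization 2 = b.factorization 2 := by
  refine le_antisymm ((Nat.factorization_le_iff_dvd ha hb).2 hab 2) ?_
  exact (Nat.Prime.pow_dvd_iff_le_factorization Nat.prime_two ha).1 h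

theorem eq_of_isPGroup_of_card {H U : Subgroup X} (hU : U ≤ H)
    (hU2 : Nat.card U = 2 ^ (Nat.card H).factorization 2) {V : Subgroup X} (hV : V ≤ H)
    (hV2 : IsPGroup 2 V) (hUV : U ≤ V) : U = V := by
  haveI : Fact (Nat.Prime 2) := ⟨Nat.prime_two⟩
  refine Subgroup.eq_of_le_of_card_ge hUV ?_
  obtain ⟨k, hk⟩ := IsPGroup.iff_card.1 hV2
  have h1 : 2 ^ k ∣ Nat.card H := hk ▸ Subgroup.card_dvd_of_le hV
  rw [hk, hU2]
  exact Nat.pow_le_pow_right (by norm_num)
    ((Nat.Prime.pow_dvd_iff_le_factorization Nat.prime_two Nat.card_pos.ne').1 h1)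

theorem exists_two_sylow_le {H U : Subgroup X} (hU : U ≤ H) (hU2 : IsPGroup 2 U) :
    ∃ V : Subgroup X, U ≤ V ∧ V ≤ H ∧ IsPGroup 2 V ∧
      Nat.card V = 2 ^ (Nat.card H).factorization 2 := by
  haveI : Fact (Nat.Prime 2) := ⟨Nat.prime_two⟩
  obtain ⟨S, hS⟩ := (IsPGroup.of_injective (hU2) ((Subgroup.subgroupOfEquivOfLe hU).toMonoidHom)
    (MulEquiv.injective _)).exists_le_sylow
  refine ⟨(S : Subgroup H).map H.subtype, ?_, Subgroup.map_subtype_le _, S.isPGroup'.map _, ?_⟩
  · intro x hx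
    exact ⟨⟨x, hU hx⟩, hS (Subgroup.mem_subgroupOf.2 hx), rfl⟩
  · rw [Subgroup.card_map_of_injective H.subtype_injective, S.card_eq_multiplicity]

theorem Hyp.exists_cfg (h : Hyp X Ω) (α : Ω) (t₀ : X) (h₀ : t₀ * t₀ = 1) (h₀α : t₀ • α = α) :
    ∃ (β : Ω) (t e : X) (T C Q : Subgroup X), Cfg α β t e T C Q ∧ (t₀ = 1 ∨ t = t₀) := by
  haveI : Fact (Nat.Prime 2) := ⟨Nat.prime_two⟩
  have hU : IsPGroup 2 (zpowers t₀) := by
    intro x
    obtain ⟨j, hj⟩ := Subgroup.mem_zpowers_iff.1 x.2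
    refine ⟨1, Subtype.ext ?_⟩
    rw [SubmonoidClass.coe_pow, OneMemClass.coe_one, pow_one, pow_two, ← hj,
      ← (Commute.refl t₀).mul_zpow, h₀, one_zpow]
  obtain ⟨T, hT0, hTS, hT2, hTc⟩ :=
    exists_two_sylow_le (zpowers_le.2 (mem_stabilizer_iff.2 h₀α)) hU
  have ht₀T : t₀ ∈ T := hT0 (mem_zpowers _)
  haveI := h.zst α
  have hTcyc : IsCyclic T := by
    have h1 : IsPGroup 2 (T.subgroupOf (stabilizer X α)) :=
      hT2.of_injective ((Subgroup.subgroupOfEquivOfLe hTS).toMonoidHom) (MulEquiv.injective _)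
    haveI := h1.isCyclic_of_isZGroup
    exact isCyclic_of_surjective _ (Subgroup.subgroupOfEquivOfLe hTS).surjective
  obtain ⟨C0, hC0c, hC0f, hC0n⟩ := h.semi
  have hn0 : Nat.card Ω ≠ 0 := by have := h.large; omega
  have hS0 : Nat.card (stabilizer X α) ≠ 0 := Nat.card_pos.ne'
  have hfacX : (Nat.card X).factorization 2 =
      (Nat.card (stabilizer X α)).factorization 2 + (Nat.card Ω).factorization 2 := by
    rw [← h.card_stabilizer α, Nat.factorization_mul hS0 hn0, Finsupp.coe_add, Pi.add_apply]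
  have hC0p : IsPGroup 2 C0 := IsPGroup.of_card hC0n
  -- `T` is nontrivial
  have hTne : T ≠ ⊥ := by
    intro hb
    rw [hb, Subgroup.card_bot] at hTc
    have h0 : (Nat.card (stabilizer X α)).factorization 2 = 0 :=
      (pow_eq_one_iff.mp hTc.symm).resolve_left (by norm_num)
    obtain ⟨P, hP⟩ := hC0p.exists_le_sylow
    have hPe : C0 = (P : Subgroup X) := Subgroup.eq_of_le_of_card_ge hP (by
      rw [P.card_eq_multiplicity, hC0n, hfacX, h0, zero_add])
    exact h.sylow_not_cyclic P (hPe ▸ hC0c)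
  obtain ⟨t, htT, ht1, ht2⟩ := exists_inv_of_isPGroup hT2 hTne
  have htt : t₀ = 1 ∨ t = t₀ :=
    (em (t₀ = 1)).imp_right fun hne => cyclic_unique_inv hTcyc htT ht₀T ht1 hne ht2 h₀
  have hTfix : ∀ d ∈ T, d • α = α := fun d hd => mem_stabilizer_iff.1 (hTS hd)
  have hTC : T ≤ centralizer {t} := by
    intro d hd
    refine mem_centralizer_singleton_iff.2 ?_
    haveI := hTcyc
    haveI := IsCyclic.isMulCommutative (α := T)
    exact congrArg Subtype.val (mul_comm' (M := T) ⟨d, hd⟩ ⟨t, htT⟩)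
  obtain ⟨Q, hTQ, hQC, hQ2, hQc⟩ := exists_two_sylow_le hTC hT2
  obtain ⟨P, hP⟩ := hQ2.exists_le_sylow
  obtain ⟨P0, hP0⟩ := hC0p.exists_le_sylow
  obtain ⟨k, hk⟩ := MulAction.exists_smul_eq X P0 P
  set A := C0.map (MulAut.conj k).toMonoidHom with hA
  have hAP : A ≤ (P : Subgroup X) := by
    rintro x ⟨c, hc, rfl⟩
    rw [← hk]
    exact Subgroup.smul_mem_pointwise_smul c (MulAut.conj k) (P0 : Subgroup X) (hP0 hc)
  haveI := hC0c
  have hAcyc : IsCyclic A := isCyclic_of_surjective _ ((MulAut.conj k).toMonoidHom.subgroupMap_surjective C0)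
  have hAfree : ∀ c ∈ A, ∀ w : Ω, c • w = w → c = 1 := by
    rintro x ⟨c, hc, rfl⟩ w hw
    simp only [MulEquiv.coe_toMonoidHom, MulAut.conj_apply, mul_smul] at hw ⊢
    have h1 : c • k⁻¹ • w = k⁻¹ • w := eq_inv_smul_iff.2 hw
    rw [hC0f c hc _ h1]; group
  have hAn : Nat.card A = 2 ^ (Nat.card Ω).factorization 2 := by
    rw [hA, Subgroup.card_map_of_injective (MulEquiv.injective _), hC0n]
  have hTeq : ∀ x ∈ (P : Subgroup X), x • α = α → x ∈ T := by
    intro x hx hxα
    have he : T = (P : Subgroup X) ⊓ stabilizer X α :=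
      eq_of_isPGroup_of_card hTS hTc inf_le_right (P.isPGroup'.to_le inf_le_left)
        (le_inf (hTQ.trans hP) hTS)
    rw [he]
    exact ⟨hx, mem_stabilizer_iff.2 hxα⟩
  have hAT : ∀ c ∈ A, c ∈ T → c = 1 := fun c hc hcT => hAfree c hc α (hTfix c hcT)
  -- `P = A T`
  have hPdec : ∀ x ∈ (P : Subgroup X), ∃ c ∈ A, ∃ d ∈ T, x = c * d := by
    let μ : A × T → (P : Subgroup X) := fun y =>
      ⟨(y.1 : X) * y.2, mul_mem (hAP y.1.2) (hP (hTQ y.2.2))⟩
    have hμ : Function.Injective μ := by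
      rintro ⟨c, d⟩ ⟨c', d'⟩ heq
      have h1 : (c : X) * d = c' * d' := congrArg Subtype.val heq
      have h2 : (c' : X)⁻¹ * c = d' * (d : X)⁻¹ := by
        rw [eq_mul_inv_iff_mul_eq, mul_assoc, h1]; group
      have h3 : (c' : X)⁻¹ * c = 1 := hAT _ (mul_mem (inv_mem c'.2) c.2)
        (h2 ▸ mul_mem d'.2 (inv_mem d.2))
      have hc : c = c' := Subtype.ext (inv_mul_eq_one.1 h3).symm
      subst hc
      exact Prod.ext rfl (Subtype.ext (mul_left_cancel h1))
    have hbij : Function.Bijective μ := (Nat.bijective_iff_injective_and_card μ).2 ⟨hμ, by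
      rw [Nat.card_prod, hAn, hTc, P.card_eq_multiplicity, ← pow_add, hfacX, add_comm]⟩
    intro x hx
    obtain ⟨⟨c, d⟩, hcd⟩ := hbij.2 ⟨x, hx⟩
    exact ⟨c, c.2, d, d.2, (congrArg Subtype.val hcd).symm⟩
  -- the involution of `A`
  have hAne : A ≠ ⊥ := by
    intro hb
    have h1 := hAn
    rw [hb, Subgroup.card_bot] at h1
    have h2 : 1 ≤ (Nat.card Ω).factorization 2 :=
      (Nat.Prime.pow_dvd_iff_le_factorization Nat.prime_two hn0).1
        (by rw [pow_one]; exact even_iff_two_dvd.1 h.even)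
    have h3 : 2 ^ 1 ≤ 2 ^ (Nat.card Ω).factorization 2 := Nat.pow_le_pow_right (by norm_num) h2
    omega
  obtain ⟨e, heA, he1, he2⟩ := exists_inv_of_isPGroup (P.isPGroup'.to_le hAP) hAne
  have hnorm : ∀ d ∈ T, e * d * e ∈ T := by
    have hTP : T < (P : Subgroup X) := by
      refine lt_of_le_of_ne (hTQ.trans hP) fun heq => he1 (hAT e heA ?_)
      rw [heq]; exact hAP heA
    haveI : Group.IsNilpotent (P : Subgroup X) := P.isPGroup'.isNilpotent
    have hlt := Group.normalizerCondition_of_isNilpotent (G := (P : Subgroup X))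
      (T.subgroupOf P) (lt_top_iff_ne_top.2 fun htop => not_le_of_gt hTP (by
        intro x hx
        have h1 : (⟨x, hx⟩ : (P : Subgroup X)) ∈ T.subgroupOf P := htop ▸ Subgroup.mem_top _
        exact h1))
    obtain ⟨g, hgN, hgT⟩ := SetLike.exists_of_lt hlt
    obtain ⟨c, hc, d, hd, hcd⟩ := hPdec g g.2
    have hN : ∀ y ∈ T, c * y * c⁻¹ ∈ T := by
      intro y hy
      have h1 := (Subgroup.mem_normalizer_iff.1 hgN
        ⟨d⁻¹ * y * d, hP (hTQ (mul_mem (mul_mem (inv_mem hd) hy) hd))⟩).1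
          (Subgroup.mem_subgroupOf.2 (mul_mem (mul_mem (inv_mem hd) hy) hd))
      have h2 := Subgroup.mem_subgroupOf.1 h1
      simp only [Subgroup.coe_mul, InvMemClass.coe_inv, hcd] at h2
      simpa [mul_assoc] using h2
    have hc1 : c ≠ 1 := by
      intro h1
      refine hgT (Subgroup.mem_subgroupOf.2 ?_)
      rw [hcd, h1, one_mul]
      exact hd
    have hcne : zpowers c ≠ ⊥ := fun hb => hc1 (Subgroup.zpowers_eq_bot.1 hb)
    obtain ⟨e', he'c, he'1, he'2⟩ :=
      exists_inv_of_isPGroup (P.isPGroup'.to_le ((zpowers_le.2 hc).trans hAP)) hcne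
    have hee : e' = e := cyclic_unique_inv hAcyc (zpowers_le.2 hc he'c) heA he'1 he1 he'2 he2
    have hmemN : c ∈ normalizer (T : Set X) := Subgroup.mem_normalizer_iff.2 fun y =>
      ⟨hN y, fun hy => by
        haveI : Finite T := inferInstance
        have hsurj : Function.Surjective (fun z : T => (⟨c * z * c⁻¹, hN z z.2⟩ : T)) :=
          Finite.surjective_of_injective fun z z' hz => Subtype.ext (by
            simpa using congrArg Subtype.val hz)
        obtain ⟨z, hz⟩ := hsurj ⟨_, hy⟩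
        have : (z : X) = y := by simpa using congrArg Subtype.val hz
        exact this ▸ z.2⟩
    intro y hy
    have h1 := (Subgroup.mem_normalizer_iff.1 (hee ▸ (zpowers_le.2 hmemN) he'c) y).1 hy
    rwa [sq_one_inv he2] at h1
  have hte : t * e = e * t := by
    have h1 : e * t * e = t := by
      refine cyclic_unique_inv hTcyc (hnorm t htT) htT ?_ ht1 ?_ ht2
      · intro h1
        exact ht1 (calc t = e * e * t * (e * e) := by rw [he2]; group
          _ = e * (e * t * e) * e := by group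
          _ = 1 := by rw [h1, mul_one, he2])
      · calc e * t * e * (e * t * e) = e * t * (e * e) * t * e := by group
          _ = e * (t * t) * e := by rw [he2, mul_one]; group
          _ = 1 := by rw [ht2, mul_one, he2]
    calc t * e = e * t * e * e := by rw [h1]
      _ = e * t := by rw [mul_assoc (e * t), he2, mul_one]
  refine ⟨e • α, t, e, T, A ⊓ centralizer {t}, Q, ?_, htt⟩
  have hQeq : Q = (P : Subgroup X) ⊓ centralizer {t} :=
    eq_of_isPGroup_of_card hQC hQc inf_le_right (P.isPGroup'.to_le inf_le_left) (le_inf hP hQC)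
  have hCcyc : IsCyclic (A ⊓ centralizer {t} : Subgroup X) :=
    isCyclic_of_injective (Subgroup.inclusion inf_le_left) (Subgroup.inclusion_injective _)
  have hCQ : A ⊓ centralizer {t} ≤ Q := hQeq ▸ inf_le_inf_right _ hAP
  have hQdec : ∀ q ∈ Q, ∃ c ∈ A ⊓ centralizer {t}, ∃ d ∈ T, q = c * d := by
    intro q hq
    obtain ⟨c, hc, d, hd, rfl⟩ := hPdec q (hP hq)
    refine ⟨c, ⟨hc, ?_⟩, d, hd, rfl⟩
    simpa using mul_mem (hQC hq) (inv_mem (hTC hd))
  refine
    { ne := ?_, t_ne := ht1, t_sq := ht2, t_mem := htT, e_sq := he2, e_free := ?_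
      e_swap := rfl, te := hte, T_cyc := hTcyc, T_two := hT2, T_fixl := hTfix, T_fixr := ?_
      T_max := ?_, e_norm := hnorm, C_cyc := hCcyc, C_free := fun c hc => hAfree c hc.1
      e_mem := ⟨heA, mem_centralizer_singleton_iff.2 hte.symm⟩
      C_le := hCQ, T_le := hTQ, Q_le := hQC, Q_two := hQ2, Q_dec := hQdec, Q_card := hQc
      C_card := ?_ }
  · exact fun h1 => he1 (hAfree e heA α h1.symm)
  · exact fun w hw => he1 (hAfree e heA w hw)
  · intro d hd
    have h1 := hTfix _ (hnorm d hd)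
    rw [mul_smul, mul_smul] at h1
    calc d • e • α = (e * e) • d • e • α := by rw [he2, one_smul]
      _ = e • α := by rw [mul_smul, h1]
  · intro x hx hx2 hcomm
    have hn : zpowers x ≤ normalizer (T : Set X) := zpowers_le.2 (Subgroup.mem_normalizer_iff.2
      fun y => ⟨fun hy => by rw [← hcomm y hy, mul_inv_cancel_right]; exact hy,
        fun hy => by
          have h1 := hcomm _ hy
          have h2 : x * y * x⁻¹ = y := mul_left_cancel (a := x) (by rw [← h1]; group)
          rwa [h2] at hy⟩)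
    have hsup : IsPGroup 2 (T ⊔ zpowers x : Subgroup X) := hT2.to_sup_of_normal_left' hx2 hn
    rw [eq_of_isPGroup_of_card hTS hTc (sup_le hTS (zpowers_le.2 (mem_stabilizer_iff.2 hx)))
      hsup le_sup_left]
    exact Subgroup.mem_sup_right (mem_zpowers x)
  · -- `|C|` is the 2-part of the number of fixed points of `t`
    have htα : t • α = α := hTfix t htT
    have h1 := index_stabilizer (centralizer ({t} : Set X)) α
    have horb : orbit (centralizer ({t} : Set X)) α = {w : Ω | t • w = w} := by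
      ext w
      constructor
      · rintro ⟨g, rfl⟩
        exact Hyp.cent_fix (mem_centralizer_singleton_iff.1 g.2) htα
      · intro hw
        have htw : t • w = w := hw
        by_cases hwa : w = α
        · exact ⟨1, by simp [hwa]⟩
        obtain ⟨g, hg, hg1, -⟩ := h.exists_cent_map ht1 ht2 (Ne.symm hwa) hwa htα htw htw htα
        exact ⟨⟨g, mem_centralizer_singleton_iff.2 hg⟩, hg1⟩
    rw [horb] at h1
    set Cα := stabilizer (centralizer ({t} : Set X)) α with hCα
    have h2 : (Nat.card Cα).factorization 2 = (Nat.card (stabilizer X α)).factorization 2 := by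
      have hmap : Nat.card Cα = Nat.card (Cα.map (centralizer ({t} : Set X)).subtype) :=
        (Subgroup.card_map_of_injective (Subgroup.subtype_injective _)).symm
      rw [hmap]
      refine factorization_two_eq Nat.card_pos.ne' (Subgroup.card_dvd_of_le ?_) hS0 ?_
      · rintro x ⟨y, hy, rfl⟩
        exact mem_stabilizer_iff.2 (mem_stabilizer_iff.1 hy)
      · rw [← hTc]
        refine Subgroup.card_dvd_of_le fun d hd => ?_
        exact ⟨⟨d, hTC hd⟩, mem_stabilizer_iff.2 (hTfix d hd), rfl⟩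
    have h3 := Subgroup.card_mul_index Cα
    rw [h1] at h3
    have h4 : {w : Ω | t • w = w}.ncard ≠ 0 :=
      Set.ncard_ne_zero_of_mem (show α ∈ {w : Ω | t • w = w} from htα)
    have h5 : Nat.card Q = Nat.card (A ⊓ centralizer {t} : Subgroup X) * Nat.card T := by
      rw [← Nat.card_prod]
      refine (Nat.card_congr (Equiv.ofBijective
        (fun y : (A ⊓ centralizer {t} : Subgroup X) × T =>
          (⟨(y.1 : X) * y.2, mul_mem (hCQ y.1.2) (hTQ y.2.2)⟩ : Q)) ⟨?_, ?_⟩)).symm
      · rintro ⟨c, d⟩ ⟨c', d'⟩ heq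
        have h1 : (c : X) * d = c' * d' := congrArg Subtype.val heq
        have h2 : (c' : X)⁻¹ * c = d' * (d : X)⁻¹ := by
          rw [eq_mul_inv_iff_mul_eq, mul_assoc, h1]; group
        have h3 : (c' : X)⁻¹ * c = 1 := hAT _ (mul_mem (inv_mem c'.2.1) c.2.1)
          (h2 ▸ mul_mem d'.2 (inv_mem d.2))
        have hc : c = c' := Subtype.ext (inv_mul_eq_one.1 h3).symm
        subst hc
        exact Prod.ext rfl (Subtype.ext (mul_left_cancel h1))
      · rintro ⟨q, hq⟩
        obtain ⟨c, hc, d, hd, rfl⟩ := hQdec q hq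
        exact ⟨(⟨c, hc⟩, ⟨d, hd⟩), rfl⟩
    rw [hQc, hTc, ← h3, Nat.factorization_mul Nat.card_pos.ne' h4, Finsupp.coe_add, Pi.add_apply,
      h2, pow_add, mul_comm] at h5
    exact (Nat.eq_of_mul_eq_mul_right (by positivity) h5).symm

end Cfsg.Agent.CZFact
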