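import Cfsg.Agent.CZFact.Swap

/-!
# The case in which every involution fixes at most two points
-/

set_option autoImplicit false
set_option linter.style.haveILetI false
set_option linter.unusedSectionVars false

namespace Cfsg.Agent.CZFact

open Subgroup MulAction

universe u

variable {X : Type u} [Group X] [Finite X] {Ω : Type u} [MulAction X Ω] [Finite Ω]

/-- Every involution fixes at most two points. -/
def Bound2 (X : Type u) (Ω : Type u) [Group X] [MulAction X Ω] : Prop :=
  ∀ x : X, x ≠ 1 → x * x = 1 → ∀ a b c : Ω, x • a = a → x • b = b → x • c = c →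
    a ≠ b → a ≠ c → b ≠ c → False

theorem Hyp.orbit_stab (h : Hyp X Ω) {a b : Ω} (hab : a ≠ b) :
    orbit (stabilizer X a) b = {a}ᶜ := by
  ext c
  constructor
  · rintro ⟨g, rfl⟩ hga
    exact hab (MulAction.injective (g : X)
      ((mem_stabilizer_iff.1 g.2).trans (Set.mem_singleton_iff.1 hga).symm))
  · intro hc
    obtain ⟨g, hg1, hg2⟩ := h.two a b a c hab (fun e => hc e.symm)
    exact ⟨⟨g, mem_stabilizer_iff.2 hg1⟩, hg2⟩

theorem Hyp.card_stab_two (h : Hyp X Ω) {a b : Ω} (hab : a ≠ b) :
    Nat.card (pairStab (X := X) a b) * (Nat.card Ω - 1) = Nat.card (stabilizer X a) := by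
  have h1 := index_stabilizer (stabilizer X a) b
  rw [h.orbit_stab hab, Set.ncard_compl, Set.ncard_singleton] at h1
  rw [← h1, ← Subgroup.card_mul_index (stabilizer (stabilizer X a) b)]
  congr 1
  exact Nat.card_congr
    { toFun := fun x => ⟨⟨x.1, x.2.1⟩, mem_stabilizer_iff.2 (mem_two.1 x.2).2⟩
      invFun := fun x => ⟨x.1.1, x.1.2, mem_stabilizer_iff.2 (mem_stabilizer_iff.1 x.2)⟩
      left_inv := fun x => rfl
      right_inv := fun x => rfl }

variable (h : Hyp X Ω) (hb : Bound2 X Ω) {α β : Ω} (hne : α ≠ β) {t : X} (ht1 : t ≠ 1)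
  (ht2 : t * t = 1) (htα : t • α = α) (htβ : t • β = β)
include h hb hne ht1 ht2 htα htβ

theorem fix_cases {w : Ω} (hw : t • w = w) : w = α ∨ w = β := by
  by_contra hh
  push Not at hh
  exact hb t ht1 ht2 α β w htα htβ hw hne hh.1.symm hh.2.symm

theorem cent_fix_right {g : X} (hg : g * t = t * g) (hgα : g • α = α) : g • β = β := by
  rcases fix_cases h hb hne ht1 ht2 htα htβ (Hyp.cent_fix hg htβ) with h1 | h1
  · exact absurd (MulAction.injective g (h1.trans hgα.symm)) hne.symm
  · exact h1

/-- The derived group of the stabiliser is regular on the other points. -/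
theorem card_derived :
    Nat.card (_root_.commutator (stabilizer X α)) = Nat.card Ω - 1 ∧
      ∀ c : Ω, c ≠ α → ∃ f ∈ _root_.commutator (stabilizer X α), (f : X) • β = c := by
  set F := _root_.commutator (stabilizer X α)
  have hfree : ∀ f ∈ F, ∀ c : Ω, c ≠ α → (f : X) • c = c → f = 1 := by
    intro f hf c hc hfc
    refine Subtype.ext (h.eq_one_of_normalized (U := zpowers (f : X)) hc.symm (zpowers_le.2 f.2)
      (fun g hg w hw => h.conj_mem_zpowers α hg hf hw) (fun w hw => ?_) (mem_zpowers _))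
    obtain ⟨j, rfl⟩ := Subgroup.mem_zpowers_iff.1 hw
    exact fixes_zpow hfc j
  have hmove : ∀ f : F, ((f : stabilizer X α) : X) • β ≠ α := fun f hh =>
    hne.symm (MulAction.injective ((f : stabilizer X α) : X)
      (hh.trans (mem_stabilizer_iff.1 (f : stabilizer X α).2).symm))
  let ι : F → ({α}ᶜ : Set Ω) := fun f => ⟨((f : stabilizer X α) : X) • β, hmove f⟩
  have hι : Function.Injective ι := by
    intro f f' hff
    have h1 : ((f : stabilizer X α) : X) • β = ((f' : stabilizer X α) : X) • β :=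
      congrArg Subtype.val hff
    have h2 := hfree ((f' : stabilizer X α)⁻¹ * f) (mul_mem (inv_mem f'.2) f.2) β hne.symm
      (by rw [Subgroup.coe_mul, mul_smul, h1, InvMemClass.coe_inv, inv_smul_smul])
    exact Subtype.ext (inv_mul_eq_one.1 h2).symm
  have hex : ∀ c : ({α}ᶜ : Set Ω), ∃ g : stabilizer X α, (g : X) • β = c := fun c => by
    obtain ⟨g, hg1, hg2⟩ := h.two α β α c hne (fun e => c.2 e.symm)
    exact ⟨⟨g, mem_stabilizer_iff.2 hg1⟩, hg2⟩
  choose gc hgc using hex
  let ts : stabilizer X α := ⟨t, mem_stabilizer_iff.2 htα⟩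
  let κ : ({α}ᶜ : Set Ω) → F := fun c => ⟨gc c * ts * (gc c)⁻¹ * ts⁻¹, by
    rw [← commutatorElement_def]
    exact Subgroup.commutator_mem_commutator (Subgroup.mem_top _) (Subgroup.mem_top _)⟩
  have hκ : Function.Injective κ := by
    intro c c' hcc
    have h1 : (gc c : X) * t * (gc c : X)⁻¹ = (gc c' : X) * t * (gc c' : X)⁻¹ := by
      have := congrArg (fun f : F => ((f : stabilizer X α) : X)) hcc
      simpa [κ, ts] using this
    refine Subtype.ext ?_
    by_contra hcne
    have hf1 : ((gc c : X) * t * (gc c : X)⁻¹) • (c' : Ω) = c' := by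
      rw [h1, ← hgc c', mul_smul, mul_smul, inv_smul_smul, htβ]
    refine hb ((gc c : X) * t * (gc c : X)⁻¹) (fun e => ht1 (by simpa using e)) ?_ α c c' ?_ ?_ hf1
      (fun e => c.2 e.symm) (fun e => c'.2 e.symm) hcne
    · rw [show (gc c : X) * t * (gc c : X)⁻¹ * ((gc c : X) * t * (gc c : X)⁻¹)
        = (gc c : X) * (t * t) * (gc c : X)⁻¹ from by group, ht2]; group
    · rw [mul_smul, mul_smul, fixes_inv (mem_stabilizer_iff.1 (gc c).2), htα,
        mem_stabilizer_iff.1 (gc c).2]
    · rw [← hgc c, mul_smul, mul_smul, inv_smul_smul, htβ]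
  have hc : Nat.card ({α}ᶜ : Set Ω) = Nat.card Ω - 1 := by
    rw [Nat.card_coe_set_eq, Set.ncard_compl, Set.ncard_singleton]
  have hcard : Nat.card F = Nat.card Ω - 1 := by
    have h1 := Nat.card_le_card_of_injective ι hι
    have h2 := Nat.card_le_card_of_injective κ hκ
    omega
  refine ⟨hcard, fun c hcα => ?_⟩
  obtain ⟨f, hf⟩ := ((Nat.bijective_iff_injective_and_card ι).2 ⟨hι, by rw [hcard, hc]⟩).2 ⟨c, hcα⟩
  exact ⟨f, f.2, congrArg Subtype.val hf⟩

theorem card_two_le_totient : Nat.card (pairStab (X := X) α β) ≤ (Nat.card Ω - 1).totient := by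
  obtain ⟨hcard, htr⟩ := card_derived h hb hne ht1 ht2 htα htβ
  haveI := h.zst α
  haveI := IsZGroup.isCyclic_commutator (stabilizer X α)
  let φ : (pairStab α β : Subgroup X) →* MulAut (_root_.commutator (stabilizer X α)) :=
    MulAut.conjNormal.comp (Subgroup.inclusion inf_le_left)
  have hφ : Function.Injective φ := by
    refine (injective_iff_map_eq_one φ).2 fun x hx => Subtype.ext (h.faith _ fun c => ?_)
    obtain ⟨hxa, hxb⟩ := mem_two.1 x.2
    rcases eq_or_ne c α with rfl | hc
    · exact hxa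
    obtain ⟨f, hf, rfl⟩ := htr c hc
    have h1 : ((φ x ⟨f, hf⟩ : _root_.commutator (stabilizer X α)) : stabilizer X α) = f := by
      rw [hx]; rfl
    have h2 := congrArg Subtype.val h1
    simp only [φ, MonoidHom.coe_comp, Function.comp_apply, MulAut.conjNormal_apply, Subgroup.coe_mul,
      InvMemClass.coe_inv] at h2
    change (x : X) * (f : X) * (x : X)⁻¹ = (f : X) at h2
    rw [← mul_smul, show (x : X) * (f : X) = (x : X) * f * (x : X)⁻¹ * x from by group, h2, mul_smul,
      hxb]
  have h1 := Nat.card_le_card_of_injective φ hφ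
  rwa [IsCyclic.card_mulAut, hcard] at h1

/-- The main count. -/
theorem small_count {e : X} (he2 : e * e = 1) (hswap : e • α = β) (hfree : ∀ w : Ω, e • w ≠ w) :
    (∀ x ∈ pairStab (X := X) α β, x * e = e * x → x = 1 ∨ x = t) ∧
      Nat.card (pairStab (X := X) α β) = Nat.card Ω - 2 ∧ (Nat.card Ω - 1).Prime := by
  classical
  have hl := h.large
  have hte : t * e = e * t := by
    have h1 : e * t * e = t := by
      refine h.unique_inv hne ?_ ht1 ?_ ht2 ?_ ?_ htα htβ
      · intro h1
        exact ht1 (calc t = e * e * t * (e * e) := by rw [he2]; group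
          _ = e * (e * t * e) * e := by group
          _ = 1 := by rw [h1, mul_one, he2])
      · calc e * t * e * (e * t * e) = e * t * (e * e) * t * e := by group
          _ = e * (t * t) * e := by rw [he2, mul_one]; group
          _ = 1 := by rw [ht2, mul_one, he2]
      · rw [mul_smul, mul_smul, hswap, htβ, swap_right he2 hswap]
      · rw [mul_smul, mul_smul, swap_right he2 hswap, htα, hswap]
    calc t * e = e * t * e * e := by rw [h1]
      _ = e * t := by rw [mul_assoc (e * t), he2, mul_one]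
  set D : Subgroup X := pairStab α β with hD
  set Z : Subgroup X := D ⊓ centralizer {e} with hZ
  set Ct : Subgroup X := centralizer {t} with hCt
  have hDC : ∀ x ∈ D, x * t = t * x := fun x hx =>
    h.two_comm hne (mem_two.1 hx).1 (mem_two.1 hx).2 htα htβ
  have heC : e ∈ Ct := mem_centralizer_singleton_iff.2 hte.symm
  -- `|C(t)| = 2 |D|`
  have hCcard : Nat.card Ct = 2 * Nat.card D := by
    have h1 := index_stabilizer Ct α
    have horb : orbit Ct α = {α, β} := by
      ext w
      constructor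
      · rintro ⟨g, rfl⟩
        rcases fix_cases h hb hne ht1 ht2 htα htβ
          (Hyp.cent_fix (mem_centralizer_singleton_iff.1 g.2) htα) with h1 | h1
        · exact Or.inl h1
        · exact Or.inr h1
      · rintro (rfl | rfl)
        · exact ⟨1, one_smul _ _⟩
        · exact ⟨⟨e, heC⟩, hswap⟩
    rw [horb, Set.ncard_pair hne] at h1
    rw [← Subgroup.card_mul_index (stabilizer Ct α), h1, mul_comm]
    congr 1
    exact Nat.card_congr
      { toFun := fun g => ⟨g.1.1, mem_two.2 ⟨mem_stabilizer_iff.1 g.2,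
          cent_fix_right h hb hne ht1 ht2 htα htβ (mem_centralizer_singleton_iff.1 g.1.2)
            (mem_stabilizer_iff.1 g.2)⟩⟩
        invFun := fun x => ⟨⟨x.1, mem_centralizer_singleton_iff.2 (hDC _ x.2)⟩,
          mem_stabilizer_iff.2 (mem_two.1 x.2).1⟩
        left_inv := fun x => rfl
        right_inv := fun x => rfl }
  obtain ⟨w₀, hw₀⟩ : ∃ w : Ω, t • w ≠ w := by
    by_contra hh; push Not at hh; exact ht1 (h.faith t hh)
  have hex : ∀ w : Ω, t • w ≠ w → ∃ g : X, g • w = α ∧ g • t • w = β := fun w hw =>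
    h.two w (t • w) α β (Ne.symm hw) hne
  -- the moved points form one orbit
  have horb2 : orbit Ct w₀ = {α, β}ᶜ := by
    ext w
    constructor
    · rintro ⟨g, rfl⟩
      intro hw
      have hfix : t • ((g : X) • w₀) = (g : X) • w₀ := by
        rcases hw with h1 | h1
        · rw [show (g : X) • w₀ = α from h1, htα]
        · rw [show (g : X) • w₀ = β from h1, htβ]
      refine hw₀ (MulAction.injective (g : X) ?_)
      show (g : X) • t • w₀ = (g : X) • w₀
      rw [← mul_smul, mem_centralizer_singleton_iff.1 g.2, mul_smul, hfix]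
    · intro hw
      have hwt : t • w ≠ w := fun e => hw (fix_cases h hb hne ht1 ht2 htα htβ e)
      obtain ⟨g, hg1, hg2⟩ := hex w₀ hw₀
      obtain ⟨g', hg1', hg2'⟩ := hex w hwt
      have hgs : (g * t * g⁻¹) • α = β := by rw [← hg1, mul_smul, mul_smul, inv_smul_smul, hg2]
      have hgs' : (g' * t * g'⁻¹) • α = β := by rw [← hg1', mul_smul, mul_smul, inv_smul_smul, hg2']
      obtain ⟨d, hd, hdc⟩ := swap_conj he2 hswap h hne hfree ht2 htα hgs hgs'
      refine ⟨⟨g'⁻¹ * d * g, mem_centralizer_singleton_iff.2 ?_⟩, ?_⟩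
      · calc g'⁻¹ * d * g * t = g'⁻¹ * (d * (g * t * g⁻¹) * d⁻¹) * d * g := by group
          _ = g'⁻¹ * (g' * t * g'⁻¹) * d * g := by rw [hdc]
          _ = t * (g'⁻¹ * d * g) := by group
      · show (g'⁻¹ * d * g) • w₀ = w
        rw [mul_smul, mul_smul, hg1, (mem_two.1 hd).1, ← hg1', inv_smul_smul]
  have h2 := index_stabilizer Ct w₀
  rw [horb2, Set.ncard_compl, Set.ncard_pair hne] at h2
  obtain ⟨g, hg1, hg2⟩ := hex w₀ hw₀
  have hs : (g * t * g⁻¹) • α = β := by rw [← hg1, mul_smul, mul_smul, inv_smul_smul, hg2]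
  have hsD : e * (g * t * g⁻¹) ∈ D := (swap_spec he2 hswap h hne hfree ht2 htα hs).1
  have hcomm : ∀ x ∈ D, x * (e * (g * t * g⁻¹)) = e * (g * t * g⁻¹) * x := fun x hx =>
    h.two_comm hne (mem_two.1 hx).1 (mem_two.1 hx).2 (mem_two.1 hsD).1 (mem_two.1 hsD).2
  have hZs : Nat.card (stabilizer Ct w₀) = Nat.card Z := by
    refine Nat.card_congr
      { toFun := fun y => ⟨g * y.1.1 * g⁻¹, ?_, ?_⟩
        invFun := fun z => ⟨⟨g⁻¹ * z.1 * g, ?_⟩, ?_⟩
        left_inv := fun y => Subtype.ext (Subtype.ext (by group))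
        right_inv := fun z => Subtype.ext (by group) }
    · have hyw : (y.1.1 : X) • w₀ = w₀ := y.2
      have hyt := mem_centralizer_singleton_iff.1 y.1.2
      refine mem_two.2 ⟨?_, ?_⟩
      · rw [← hg1, mul_smul, mul_smul, inv_smul_smul, hyw]
      · rw [← hg2, mul_smul, mul_smul, inv_smul_smul, ← mul_smul (y.1.1 : X), hyt, mul_smul, hyw]
    · have hyw : (y.1.1 : X) • w₀ = w₀ := y.2
      have hyt := mem_centralizer_singleton_iff.1 y.1.2
      have hz : g * y.1.1 * g⁻¹ ∈ D := by
        refine mem_two.2 ⟨?_, ?_⟩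
        · rw [← hg1, mul_smul, mul_smul, inv_smul_smul, hyw]
        · rw [← hg2, mul_smul, mul_smul, inv_smul_smul, ← mul_smul (y.1.1 : X), hyt, mul_smul, hyw]
      refine mem_centralizer_singleton_iff.2 ?_
      set z := g * y.1.1 * g⁻¹
      set s := g * t * g⁻¹ with hsdef
      have hzs : z * s = s * z := by
        show g * y.1.1 * g⁻¹ * (g * t * g⁻¹) = g * t * g⁻¹ * (g * y.1.1 * g⁻¹)
        calc g * (y.1.1 : X) * g⁻¹ * (g * t * g⁻¹) = g * (y.1.1 * t) * g⁻¹ := by group
          _ = g * (t * y.1.1) * g⁻¹ := by rw [hyt]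
          _ = _ := by group
      have h1 := hcomm z hz
      apply mul_right_cancel (b := s)
      calc z * e * s = z * (e * s) := by group
        _ = e * (s * z) := by rw [h1]; group
        _ = e * z * s := by rw [← hzs]; group
    · have hzD : (z : X) ∈ D := z.2.1
      have hze := mem_centralizer_singleton_iff.1 z.2.2
      refine mem_centralizer_singleton_iff.2 ?_
      set s := g * t * g⁻¹ with hsdef
      have hzs : (z : X) * s = s * z := by
        apply mul_left_cancel (a := e)
        calc e * ((z : X) * s) = (e * z) * s := by group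
          _ = (z : X) * (e * s) := by rw [← hze]; group
          _ = e * (s * z) := by rw [hcomm _ hzD]; group
      calc g⁻¹ * (z : X) * g * t = g⁻¹ * ((z : X) * s) * g := by rw [hsdef]; group
        _ = g⁻¹ * (s * z) * g := by rw [hzs]
        _ = t * (g⁻¹ * (z : X) * g) := by rw [hsdef]; group
    · show (g⁻¹ * (z : X) * g) • w₀ = w₀
      rw [mul_smul, mul_smul, hg1, (mem_two.1 z.2.1).1, ← hg1, inv_smul_smul]
  have h3 := Subgroup.card_mul_index (stabilizer Ct w₀)
  rw [h2, hZs, hCcard] at h3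
  have htot := card_two_le_totient h hb hne ht1 ht2 htα htβ
  have htot2 : (Nat.card Ω - 1).totient < Nat.card Ω - 1 := Nat.totient_lt _ (by omega)
  have htZ : t ∈ Z :=
    ⟨mem_two.2 ⟨htα, htβ⟩, mem_centralizer_singleton_iff.2 hte⟩
  have hDle : Nat.card D ≤ Nat.card Ω - 2 := by rw [hD]; omega
  have hZ2 : Nat.card Z = 2 := by
    have hle : Nat.card Z ≤ 2 := by
      by_contra hh
      have : 3 * (Nat.card Ω - 2) ≤ Nat.card Z * (Nat.card Ω - 2) :=
        Nat.mul_le_mul_right _ (by omega)
      omega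
    have hge : 1 < Nat.card Z := Finite.one_lt_card_iff_nontrivial.2
      ⟨⟨⟨t, htZ⟩, 1, fun e => ht1 (congrArg Subtype.val e)⟩⟩
    omega
  have hDeq : Nat.card D = Nat.card Ω - 2 := by rw [hZ2] at h3; omega
  refine ⟨fun x hx hxe => ?_, hDeq, ?_⟩
  · by_contra hh
    push Not at hh
    have h3' : ({⟨1, one_mem _⟩, ⟨t, htZ⟩, ⟨x, hx, mem_centralizer_singleton_iff.2 hxe⟩} :
        Set Z).ncard = 3 := Set.ncard_eq_three.2 ⟨_, _, _, fun e => ht1 (congrArg Subtype.val e).symm,
          fun e => hh.1 (congrArg Subtype.val e).symm, fun e => hh.2 (congrArg Subtype.val e).symm, rfl⟩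
    have := Set.ncard_le_ncard (Set.subset_univ
      ({⟨1, one_mem _⟩, ⟨t, htZ⟩, ⟨x, hx, mem_centralizer_singleton_iff.2 hxe⟩} : Set Z))
    rw [h3', Set.ncard_univ, hZ2] at this
    omega
  · refine (Nat.totient_eq_iff_prime (by omega)).1 ?_
    rw [hD] at hDeq
    omega

end Cfsg.Agent.CZFact
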