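import Cfsg.Agent.CZFact.Cyclic

/-!
# Involutions exchanging two given points
-/

set_option autoImplicit false
set_option linter.style.haveILetI false
set_option linter.unusedSectionVars false

namespace Cfsg.Agent.CZFact

open Subgroup MulAction

universe u

variable {X : Type u} [Group X] [Finite X] {Ω : Type u} [MulAction X Ω] [Finite Ω]

/-- The stabiliser of two points. -/
def pairStab (α β : Ω) : Subgroup X := stabilizer X α ⊓ stabilizer X β

theorem mem_two {α β : Ω} {x : X} : x ∈ pairStab α β ↔ x • α = α ∧ x • β = β :=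
  ⟨fun h => ⟨mem_stabilizer_iff.1 h.1, mem_stabilizer_iff.1 h.2⟩,
    fun h => ⟨mem_stabilizer_iff.2 h.1, mem_stabilizer_iff.2 h.2⟩⟩

theorem split (x : X) : ∃ u w : X, u ∈ zpowers x ∧ w ∈ zpowers x ∧ x = u * w ∧
    IsPGroup 2 (zpowers u) ∧ Odd (orderOf w) := by
  obtain ⟨a, b, hb, hab⟩ := Nat.exists_eq_two_pow_mul_odd (orderOf_pos x).ne'
  have hco : IsCoprime (b : ℤ) ((2 : ℤ) ^ a) := by
    apply IsCoprime.pow_right
    obtain ⟨r, rfl⟩ := hb
    exact ⟨1, -(r : ℤ), by push_cast; ring⟩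
  obtain ⟨k, l, hkl⟩ := hco
  have hx : x ^ ((2 : ℤ) ^ a * (b : ℤ)) = 1 := by
    rw [show (2 : ℤ) ^ a * (b : ℤ) = ((2 ^ a * b : ℕ) : ℤ) by push_cast; ring, zpow_natCast, ← hab,
      pow_orderOf_eq_one]
  refine ⟨x ^ (k * b), x ^ (l * (2 : ℤ) ^ a), Subgroup.zpow_mem _ (mem_zpowers x) _,
    Subgroup.zpow_mem _ (mem_zpowers x) _, by rw [← zpow_add, hkl, zpow_one], ?_, ?_⟩
  · have h1 : (x ^ (k * (b : ℤ))) ^ (2 ^ a : ℕ) = 1 := by
      rw [← zpow_natCast, ← zpow_mul,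
        show k * (b : ℤ) * ((2 ^ a : ℕ) : ℤ) = (2 : ℤ) ^ a * b * k by push_cast; ring, zpow_mul, hx,
        one_zpow]
    intro y
    obtain ⟨j, hj⟩ := Subgroup.mem_zpowers_iff.1 y.2
    refine ⟨a, Subtype.ext ?_⟩
    rw [SubmonoidClass.coe_pow, OneMemClass.coe_one, ← hj]
    calc ((x ^ (k * (b : ℤ))) ^ j) ^ (2 ^ a : ℕ) = ((x ^ (k * (b : ℤ))) ^ (2 ^ a : ℕ)) ^ j := by
          rw [← zpow_natCast, ← zpow_natCast (x ^ (k * (b : ℤ))), ← zpow_mul, ← zpow_mul,
            ← zpow_mul, ← zpow_mul]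
          congr 1; ring
      _ = 1 := by rw [h1, one_zpow]
  · refine Odd.of_dvd_nat hb (orderOf_dvd_of_pow_eq_one ?_)
    rw [← zpow_natCast, ← zpow_mul, show l * (2 : ℤ) ^ a * (b : ℤ) = (2 : ℤ) ^ a * b * l by ring,
      zpow_mul, hx, one_zpow]

theorem eq_one_of_odd_of_two {x : X} (ho : Odd (orderOf x)) (h2 : IsPGroup 2 (zpowers x)) :
    x = 1 := by
  obtain ⟨k, hk⟩ := h2 ⟨x, mem_zpowers x⟩
  have h1 := orderOf_dvd_of_pow_eq_one (congrArg Subtype.val hk : x ^ (2 ^ k) = 1)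
  obtain ⟨j, -, hj⟩ := (Nat.dvd_prime_pow Nat.prime_two).1 h1
  rcases Nat.eq_zero_or_pos j with rfl | hj0
  · exact orderOf_eq_one_iff.1 (by simpa using hj)
  · rw [hj] at ho
    exact absurd ho (by rw [Nat.not_odd_iff_even]; exact (Nat.even_pow' (by omega)).2 even_two)

section Swap

variable {α β : Ω} {e : X} (he2 : e * e = 1) (hswap : e • α = β)
include he2 hswap

theorem swap_right : e • β = α := by rw [← hswap, ← mul_smul, he2, one_smul]

theorem conj_mem_two {x : X} (hx : x ∈ pairStab α β) : e * x * e ∈ pairStab α β := by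
  obtain ⟨ha, hb⟩ := mem_two.1 hx
  refine mem_two.2 ⟨?_, ?_⟩
  · rw [mul_smul, mul_smul, hswap, hb, swap_right he2 hswap]
  · rw [mul_smul, mul_smul, swap_right he2 hswap, ha, hswap]

/-- Conjugation by `e` on the two-point stabiliser. -/
def sigma : (pairStab α β : Subgroup X) →* (pairStab α β : Subgroup X) where
  toFun x := ⟨e * x * e, conj_mem_two he2 hswap x.2⟩
  map_one' := Subtype.ext (by simp [he2])
  map_mul' x y := Subtype.ext (by
    simp only [Subgroup.coe_mul]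
    calc e * (↑x * ↑y) * e = e * ↑x * (e * e) * ↑y * e := by rw [he2, mul_one]; group
      _ = e * ↑x * e * (e * ↑y * e) := by group)

theorem sigma_sigma (x : (pairStab α β : Subgroup X)) :
    sigma he2 hswap (sigma he2 hswap x) = x := Subtype.ext (by
  show e * (e * ↑x * e) * e = ↑x
  calc e * (e * ↑x * e) * e = (e * e) * ↑x * (e * e) := by group
    _ = ↑x := by rw [he2, one_mul, mul_one])

variable (h : Hyp X Ω) (hne : α ≠ β) (hfree : ∀ w : Ω, e • w ≠ w)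
include h hne hfree

/-- A conjugate of an involution with a fixed point exchanging `α` and `β`. -/
theorem swap_spec {t : X} {w₀ : Ω} (ht2 : t * t = 1) (hw₀ : t • w₀ = w₀) {g : X}
    (hg : (g * t * g⁻¹) • α = β) :
    e * (g * t * g⁻¹) ∈ pairStab α β ∧ ∀ hm : e * (g * t * g⁻¹) ∈ pairStab α β,
      (⟨_, hm⟩ : (pairStab α β : Subgroup X)) * sigma he2 hswap ⟨_, hm⟩ = 1 ∧
      ∀ z, sigma he2 hswap z * z⁻¹ ≠ ⟨_, hm⟩ := by
  set s := g * t * g⁻¹ with hs
  have hs2 : s * s = 1 := by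
    rw [hs, show g * t * g⁻¹ * (g * t * g⁻¹) = g * (t * t) * g⁻¹ from by group, ht2]; group
  have hsb : s • β = α := by rw [← hg, ← mul_smul, hs2, one_smul]
  refine ⟨mem_two.2 ⟨by rw [mul_smul, hg, swap_right he2 hswap], by rw [mul_smul, hsb, hswap]⟩,
    fun hm => ⟨Subtype.ext ?_, fun z hz => ?_⟩⟩
  · show e * s * (e * (e * s) * e) = 1
    calc e * s * (e * (e * s) * e) = e * s * (e * e) * s * e := by group
      _ = e * (s * s) * e := by rw [he2, mul_one]; group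
      _ = 1 := by rw [hs2, mul_one, he2]
  · have hz' : e * z * e * (z : X)⁻¹ = e * s := congrArg Subtype.val hz
    have hsz : s = (z : X) * e * (z : X)⁻¹ := by
      apply mul_left_cancel (a := e)
      rw [← hz']; group
    have hfix : s • (g • w₀) = g • w₀ := by
      rw [hs, mul_smul, mul_smul, inv_smul_smul, hw₀]
    refine hfree ((z : X)⁻¹ • g • w₀) ?_
    rw [hsz, mul_smul, mul_smul] at hfix
    exact eq_inv_smul_iff.2 hfix

/-- Any two conjugates exchanging `α` and `β` are conjugate under the two-point stabiliser. -/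
theorem swap_conj {t : X} {w₀ : Ω} (ht2 : t * t = 1) (hw₀ : t • w₀ = w₀) {g g' : X}
    (hg : (g * t * g⁻¹) • α = β) (hg' : (g' * t * g'⁻¹) • α = β) :
    ∃ d ∈ pairStab (X := X) α β, d * (g * t * g⁻¹) * d⁻¹ = g' * t * g'⁻¹ := by
  haveI : IsCyclic (pairStab α β : Subgroup X) := h.isCyclic_two hne
  obtain ⟨hm, hx⟩ := swap_spec he2 hswap h hne hfree ht2 hw₀ hg
  obtain ⟨hm', hy⟩ := swap_spec he2 hswap h hne hfree ht2 hw₀ hg'
  obtain ⟨hx1, hx2⟩ := hx hm
  obtain ⟨hy1, hy2⟩ := hy hm'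
  obtain ⟨z, hz⟩ := exists_comm_eq_div (sigma_sigma he2 hswap) hx1 hy1 hx2 hy2
  refine ⟨z, z.2, ?_⟩
  have hz' : (e * (g * t * g⁻¹)) * (e * ↑z * e * (↑z : X)⁻¹) = e * (g' * t * g'⁻¹) := by
    have h1 := congrArg Subtype.val hz
    simp only [Subgroup.coe_mul, InvMemClass.coe_inv] at h1
    change e * ↑z * e * (↑z : X)⁻¹ = (e * (g * t * g⁻¹))⁻¹ * (e * (g' * t * g'⁻¹)) at h1
    rw [h1, mul_inv_cancel_left]
  have hcom : (e * (g * t * g⁻¹)) * (e * ↑z * e) = e * ↑z * e * (e * (g * t * g⁻¹)) :=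
    congrArg Subtype.val (cyc_comm (⟨_, hm⟩ : (pairStab α β : Subgroup X))
      ⟨_, conj_mem_two he2 hswap z.2⟩)
  apply mul_left_cancel (a := e)
  calc e * (↑z * (g * t * g⁻¹) * (↑z : X)⁻¹)
      = e * ↑z * (e * e) * (g * t * g⁻¹) * (↑z : X)⁻¹ := by rw [he2, mul_one]; group
    _ = e * ↑z * e * (e * (g * t * g⁻¹)) * (↑z : X)⁻¹ := by group
    _ = (e * (g * t * g⁻¹)) * (e * ↑z * e) * (↑z : X)⁻¹ := by rw [hcom]
    _ = (e * (g * t * g⁻¹)) * (e * ↑z * e * (↑z : X)⁻¹) := by group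
    _ = e * (g' * t * g'⁻¹) := hz'

end Swap

theorem Hyp.exists_swap (h : Hyp X Ω) {α β : Ω} (hne : α ≠ β) {t : X} (ht1 : t ≠ 1)
    (ht2 : t * t = 1) : ∃ g : X, (g * t * g⁻¹) • α = β := by
  obtain ⟨w, hw⟩ : ∃ w : Ω, t • w ≠ w := by
    by_contra hh; push Not at hh; exact ht1 (h.faith t hh)
  obtain ⟨g, hg1, hg2⟩ := h.two w (t • w) α β (Ne.symm hw) hne
  exact ⟨g, by rw [← hg1, mul_smul, mul_smul, inv_smul_smul, hg2]⟩

namespace Cfg

variable {α β : Ω} {t e : X} {T C Q : Subgroup X} (c : Cfg α β t e T C Q) (h : Hyp X Ω)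
include c

theorem T_le_two : T ≤ pairStab α β := fun d hd => mem_two.2 ⟨c.T_fixl d hd, c.T_fixr d hd⟩

include h

/-- A 2-element of the two-point stabiliser lies in `T`. -/
theorem mem_T {x : X} (hx : x ∈ pairStab α β) (h2 : IsPGroup 2 (zpowers x)) : x ∈ T :=
  c.T_max x (mem_two.1 hx).1 h2 fun d hd =>
    h.two_comm c.ne (mem_two.1 (c.T_le_two hd)).1 (mem_two.1 (c.T_le_two hd)).2
      (mem_two.1 hx).1 (mem_two.1 hx).2

/-- The inverted non-commutator in `T`. -/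
theorem exists_twist : ∃ u, ∃ _ : u ∈ T, u * (e * u * e) = 1 ∧
    (∀ z ∈ T, e * z * e * z⁻¹ ≠ u) ∧ ∃ k : X, k * t * k⁻¹ = e * u := by
  haveI : IsCyclic (pairStab α β : Subgroup X) := h.isCyclic_two c.ne
  obtain ⟨g, hg⟩ := h.exists_swap c.ne c.t_ne c.t_sq
  obtain ⟨hm, hx⟩ := swap_spec c.e_sq c.e_swap h c.ne c.e_free c.t_sq (c.T_fixl t c.t_mem) hg
  obtain ⟨hx1, hx2⟩ := hx hm
  set x : (pairStab α β : Subgroup X) := ⟨_, hm⟩ with hxdef
  set σ := sigma c.e_sq c.e_swap (α := α) (β := β) with hσ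
  obtain ⟨u, w, hu, hw, huw, hu2, hwo⟩ := split x
  have hxJ : ∀ v ∈ zpowers x, v * σ v = 1 := by
    intro v hv
    exact (zpowers_le.2 (show x ∈ (normHom σ).ker from hx1)) hv
  obtain ⟨r, hr⟩ := hwo
  have hwI : σ (w ^ r) * (w ^ r)⁻¹ = w := by
    have h1 : σ w = w⁻¹ := eq_inv_of_mul_eq_one_right (hxJ w hw)
    have h2 : w ^ (2 * r + 1) = 1 := hr ▸ pow_orderOf_eq_one w
    rw [map_pow, h1, inv_pow, ← mul_inv_rev, ← pow_add, inv_eq_iff_mul_eq_one, ← pow_succ,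
      show r + r + 1 = 2 * r + 1 by omega, h2]
  have huT : (u : X) ∈ T := c.mem_T h u.2 (by
    intro y
    obtain ⟨j, hj⟩ := Subgroup.mem_zpowers_iff.1 y.2
    obtain ⟨k, hk⟩ := hu2 ⟨u ^ j, Subgroup.zpow_mem _ (mem_zpowers u) j⟩
    refine ⟨k, Subtype.ext ?_⟩
    have h1 : (u ^ j) ^ (2 ^ k) = 1 := congrArg Subtype.val hk
    have h2 : (((u ^ j) ^ (2 ^ k) : (pairStab α β : Subgroup X)) : X) = 1 := by rw [h1]; rfl
    rw [SubmonoidClass.coe_pow, SubgroupClass.coe_zpow] at h2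
    rw [SubmonoidClass.coe_pow, OneMemClass.coe_one, ← hj, h2])
  refine ⟨u, huT, congrArg Subtype.val (hxJ u hu), fun z hz hzu => ?_, ?_⟩
  · refine hx2 (⟨z, c.T_le_two hz⟩ * w ^ r) ?_
    have h1 : σ ⟨z, c.T_le_two hz⟩ * (⟨z, c.T_le_two hz⟩ : (pairStab α β : Subgroup X))⁻¹ = u :=
      Subtype.ext hzu
    change commHom σ (⟨z, c.T_le_two hz⟩ * w ^ r) = x
    rw [map_mul, commHom_apply, commHom_apply, h1, hwI, huw]
  · -- conjugate the odd part away
    refine ⟨((w ^ r : (pairStab α β : Subgroup X)) : X)⁻¹ * g, ?_⟩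
    have h1 : (σ (w ^ r) * (w ^ r)⁻¹ : (pairStab α β : Subgroup X)) = x * u⁻¹ := by
      rw [hwI, huw, cyc_comm u w, mul_inv_cancel_right]
    have h2 := congrArg Subtype.val h1
    simp only [Subgroup.coe_mul, InvMemClass.coe_inv] at h2
    change e * ((w ^ r : (pairStab α β : Subgroup X)) : X) * e * ((w ^ r : (pairStab α β : Subgroup X)) : X)⁻¹
      = e * (g * t * g⁻¹) * (u : X)⁻¹ at h2
    set z : X := ((w ^ r : (pairStab α β : Subgroup X)) : X)
    have hcm : z⁻¹ * (u : X) = u * z⁻¹ :=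
      congrArg Subtype.val (cyc_comm (w ^ r : (pairStab α β : Subgroup X))⁻¹ u)
    have h3 : g * t * g⁻¹ = z * e * z⁻¹ * (u : X) := by
      apply mul_left_cancel (a := e)
      calc e * (g * t * g⁻¹) = e * (g * t * g⁻¹) * (u : X)⁻¹ * u := by group
        _ = e * z * e * z⁻¹ * u := by rw [h2]
        _ = e * (z * e * z⁻¹ * (u : X)) := by group
    calc z⁻¹ * g * t * (z⁻¹ * g)⁻¹ = z⁻¹ * (g * t * g⁻¹) * z := by group
      _ = z⁻¹ * (z * e * z⁻¹ * u) * z := by rw [h3]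
      _ = e * (z⁻¹ * u) * z := by group
      _ = e * u := by rw [hcm]; group

/-- `e` centralises or inverts `T`. -/
theorem dichotomy : (∀ d ∈ T, e * d * e = d) ∨ (∀ d ∈ T, d * (e * d * e) = 1) := by
  haveI := c.T_cyc
  let σT : T →* T :=
    { toFun := fun d => ⟨e * d * e, c.e_norm d d.2⟩
      map_one' := Subtype.ext (by simp [c.e_sq])
      map_mul' := fun x y => Subtype.ext (by
        simp only [Subgroup.coe_mul]
        calc e * (↑x * ↑y) * e = e * ↑x * (e * e) * ↑y * e := by rw [c.e_sq, mul_one]; group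
          _ = e * ↑x * e * (e * ↑y * e) := by group) }
  obtain ⟨u, huT, hu1, hu2, -⟩ := c.exists_twist h
  rcases CZFact.dichotomy (σ := σT) c.T_two (fun x => Subtype.ext (by
      show e * (e * ↑x * e) * e = ↑x
      calc e * (e * ↑x * e) * e = (e * e) * ↑x * (e * e) := by group
        _ = ↑x := by rw [c.e_sq, one_mul, mul_one]))
      (x := ⟨u, huT⟩) (Subtype.ext hu1)
      (fun z hz => hu2 z z.2 (congrArg Subtype.val hz)) with h1 | h1
  · exact Or.inl fun d hd => congrArg Subtype.val (h1 ⟨d, hd⟩)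
  · exact Or.inr fun d hd => congrArg Subtype.val (h1 ⟨d, hd⟩)

/-- If `e` centralises `T`, then `e * t` is conjugate to `t`. -/
theorem conj_et (hc : ∀ d ∈ T, e * d * e = d) : ∃ k : X, k * t * k⁻¹ = e * t := by
  obtain ⟨u, huT, hu1, hu2, k, hk⟩ := c.exists_twist h
  rw [hc u huT] at hu1
  have hu0 : u ≠ 1 := fun h1 => hu2 1 (one_mem _) (by rw [h1]; simp [c.e_sq])
  rw [cyclic_unique_inv c.T_cyc huT c.t_mem hu0 c.t_ne hu1 c.t_sq] at hk
  exact ⟨k, hk⟩

end Cfg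

end Cfsg.Agent.CZFact
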